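import Mathlib
import Cfsg.Agent.Lib.Fgs.ClassNumber
import Cfsg.Agent.Lib.Core.Fitting

/-!
# Bounds for the class numbers of all subgroups of a group
-/

set_option autoImplicit false

namespace CfsgLib.KFit

open Cfsg Subgroup Finset

variable {X Y Z : Type*} [Group X] [Group Y] [Group Z] {a b c : ℕ}

/-- the class number -/
noncomputable abbrev kc (X : Type*) [Group X] : ℕ := Nat.card (ConjClasses X)

/-- all subgroups have at most `c` classes -/
def Kb (c : ℕ) (X : Type*) [Group X] : Prop := ∀ H : Subgroup X, kc H ≤ c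

/-- the bound modulo a nilpotent normal subgroup -/
def KF (c : ℕ) (X : Type*) [Group X] : Prop :=
  ∃ (N : Subgroup X) (_ : N.Normal), Group.IsNilpotent N ∧ Kb c (X ⧸ N)

theorem kc_le_of_surj [Finite X] (f : X →* Y) (hf : Function.Surjective f) : kc Y ≤ kc X :=
  Nat.card_le_card_of_surjective (f := ConjClasses.map f) (ConjClasses.map_surjective hf)

theorem kc_le_card (X : Type*) [Group X] [Finite X] : kc X ≤ Nat.card X :=
  Nat.card_le_card_of_surjective _ ConjClasses.mk_surjective

theorem kc_le_ker_mul [Finite X] (f : X →* Y) : kc X ≤ kc f.ker * kc f.range :=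
  have : Finite f.range := Finite.of_surjective _ f.rangeRestrict_surjective
  (Fgs.card_conjClasses_le_mul_quotient f.ker).trans (Nat.mul_le_mul_left _
    (kc_le_of_surj (QuotientGroup.quotientKerEquivRange f).symm.toMonoidHom (MulEquiv.surjective _)))

theorem kc_le_mul [Finite X] [Finite Y] [Finite Z] (f : X →* Z) (hf : Function.Surjective f) (j : Y →* X)
    (h : j.range = f.ker) : kc X ≤ kc Y * kc Z := by
  refine (kc_le_ker_mul f).trans (Nat.mul_le_mul ?_ ?_)
  · exact h ▸ kc_le_of_surj j.rangeRestrict j.rangeRestrict_surjective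
  · rw [MonoidHom.range_eq_top.2 hf]
    exact kc_le_of_surj topEquiv.symm.toMonoidHom (MulEquiv.surjective _)

theorem Kb.kc_le [Finite X] (h : Kb c X) : kc X ≤ c :=
  (kc_le_of_surj topEquiv.toMonoidHom (MulEquiv.surjective _)).trans (h ⊤)

theorem Kb.mono (h : Kb a X) (hab : a ≤ b) : Kb b X := fun H => (h H).trans hab

theorem Kb.of_card [Finite X] (h : Nat.card X ≤ c) : Kb c X := fun H =>
  (kc_le_card H).trans ((card_le_card_group H).trans h)

theorem Kb.of_inj [Finite X] (h : Kb c Y) (f : X →* Y) (hf : Function.Injective f) : Kb c X := fun H => by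
  have : Finite (H.map f) := Finite.of_surjective _ (f.subgroupMap_surjective H)
  exact (kc_le_of_surj (H.equivMapOfInjective f hf).symm.toMonoidHom (MulEquiv.surjective _)).trans (h _)

theorem Kb.of_surj [Finite X] (h : Kb c X) (f : X →* Y) (hf : Function.Surjective f) : Kb c Y := fun H =>
  (kc_le_of_surj (f.subgroupComap H) (f.subgroupComap_surjective_of_surjective H hf)).trans (h _)

theorem Kb.ext [Finite X] (f : X →* Y) (h1 : Kb a f.ker) (h2 : Kb b Y) : Kb (a * b) X := fun H => by
  refine (kc_le_ker_mul (f.comp H.subtype)).trans (Nat.mul_le_mul (Kb.kc_le ?_) (h2 _))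
  refine h1.of_inj ((H.subtype.comp (f.comp H.subtype).ker.subtype).codRestrict f.ker fun x => x.2) ?_
  exact fun x y e => Subtype.ext (Subtype.ext (congrArg (fun u : f.ker => u.1) e))

theorem Kb.prod [Finite X] (f : X →* Y) (g : X →* Z) (h : ∀ x, f x = 1 → g x = 1 → x = 1) (h1 : Kb a Y)
    (h2 : Kb b Z) : Kb (a * b) X := by
  rw [mul_comm]
  exact Kb.ext f (h2.of_inj (g.comp f.ker.subtype)
    ((injective_iff_map_eq_one _).2 fun x e => Subtype.ext (h x x.2 e))) h1

theorem Kb.quot (N : Subgroup X) [N.Normal] [Finite X] (h1 : Kb a N) (h2 : Kb b (X ⧸ N)) : Kb (a * b) X :=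
  Kb.ext (QuotientGroup.mk' N) (by rwa [QuotientGroup.ker_mk']) h2

theorem kc_mul_le [Finite X] (S : Set X) (h : ∀ x ∉ S, Nat.card (centralizer ({x} : Set X)) ≤ c) :
    kc X * Nat.card X + S.ncard * c ≤ S.ncard * Nat.card X + Nat.card X * c := by
  classical
  have := Fintype.ofFinite X
  rw [← Char.sum_card_centralizer, ← Finset.sum_filter_add_sum_filter_not univ (· ∈ S)]
  have h1 : (univ.filter (· ∈ S)).card = S.ncard := by
    rw [← Set.ncard_coe_finset]; congr 1; ext; simp
  have h2 := Finset.card_filter_add_card_filter_not (s := univ) (· ∈ S)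
  have h3 := Finset.sum_le_card_nsmul (univ.filter (· ∈ S)) (fun x => Nat.card (centralizer ({x} : Set X)))
    (Nat.card X) fun x _ => card_le_card_group _
  have h4 := Finset.sum_le_card_nsmul (univ.filter (· ∉ S)) (fun x => Nat.card (centralizer ({x} : Set X)))
    c fun x hx => h x (mem_filter.1 hx).2
  rw [card_univ, ← Nat.card_eq_fintype_card, h1] at h2
  rw [h1, smul_eq_mul] at h3
  rw [smul_eq_mul] at h4
  nlinarith

theorem two_mul_card_le [Finite X] {H : Subgroup X} (h : H ≠ ⊤) : 2 * Nat.card H ≤ Nat.card X := by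
  rw [← H.index_mul_card]
  have h1 : H.index ≠ 0 := index_ne_zero_of_finite
  have h2 : H.index ≠ 1 := fun e => h (index_eq_one.1 e)
  exact Nat.mul_le_mul_right _ (by omega)

theorem four_mul_kc_le [Finite X] (h : ∃ x y : X, x * y ≠ y * x) : 4 * kc X ≤ 3 * Nat.card X := by
  have h1 := kc_mul_le (c := Nat.card X / 2) (center X : Set X) fun x hx => by
    have := two_mul_card_le (H := centralizer ({x} : Set X)) fun e =>
      hx (mem_center_iff.2 fun g => (mem_centralizer_singleton_iff.1 (e ▸ mem_top g)))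
    omega
  have h2 := two_mul_card_le (H := center X) fun e => by
    obtain ⟨x, y, h⟩ := h
    exact h (mem_center_iff.1 (e ▸ mem_top y) x)
  rw [← Nat.card_coe_set_eq] at h1
  change _ + Nat.card (center X) * _ ≤ Nat.card (center X) * _ + _ at h1
  have h3 : 0 < Nat.card X := Nat.card_pos
  have h4 : 2 * (Nat.card X / 2) ≤ Nat.card X := Nat.mul_div_le _ _
  generalize Nat.card X / 2 = m at *
  refine Nat.le_of_mul_le_mul_right ?_ h3
  zify at *
  nlinarith [mul_nonneg (sub_nonneg.2 h2) (sub_nonneg.2 h4), mul_nonneg h3.le (sub_nonneg.2 h2),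
    mul_nonneg h3.le (sub_nonneg.2 h4)]

theorem Kb.of_three [Finite X] (h : ∃ x y : X, x * y ≠ y * x) (hc : 3 * Nat.card X ≤ 4 * c) : Kb c X := fun H => by
  by_cases h1 : H = ⊤
  · have := kc_le_of_surj (topEquiv (G := X)).symm.toMonoidHom (MulEquiv.surjective _)
    have := four_mul_kc_le h
    subst h1
    omega
  · have := two_mul_card_le h1
    have := kc_le_card H
    omega

theorem Kb.of_cent [Finite X] (S : Set X) (h1 : 1 ∈ S) (hc : 0 < c)
    (h : ∀ x ∉ S, Nat.card (centralizer ({x} : Set X)) ≤ c) : Kb (S.ncard + c - 1) X := fun H => by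
  have h2 := kc_mul_le (c := c) (H.subtype ⁻¹' S) fun x hx => by
    rw [Fgs.kcl_card_centralizer_subgroup]
    exact (card_le_of_le inf_le_right).trans (h x hx)
  have h3 : (H.subtype ⁻¹' S).ncard ≤ S.ncard :=
    Set.ncard_le_ncard_of_injOn H.subtype (fun _ h => h) H.subtype_injective.injOn
  have h4 : 0 < (H.subtype ⁻¹' S).ncard := (Set.ncard_pos (Set.toFinite _)).2 ⟨1, h1⟩
  have h5 : 0 < Nat.card H := Nat.card_pos
  have : kc H < S.ncard + c := by
    refine Nat.lt_of_mul_lt_mul_right (a := Nat.card H) ?_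
    nlinarith [Nat.mul_le_mul_right (Nat.card H) h3, Nat.mul_pos h4 hc]
  omega

theorem kc_mul_le_of_normal [Finite X] (N : Subgroup X) [N.Normal]
    (h : ∀ x ∉ N, Nat.card ↥(N ⊓ centralizer ({x} : Set X)) ≤ c) :
    kc X * Nat.card X ≤ Nat.card N ^ 2 + c * Nat.card X * kc (X ⧸ N) := by
  classical
  have := Fintype.ofFinite X
  have h1 : ∀ x : X, Nat.card (centralizer ({x} : Set X)) ≤
      Nat.card (centralizer ({(x : X ⧸ N)} : Set (X ⧸ N))) * Nat.card ↥(N ⊓ centralizer ({x} : Set X)) := by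
    intro x
    rw [← Core.card_map_mk'_mul_card_inf _ N, inf_comm]
    refine Nat.mul_le_mul_right _ (card_le_of_le ?_)
    rintro _ ⟨c, hc, rfl⟩ _ rfl
    have : x * c = c * x := hc x rfl
    simp [← QuotientGroup.mk_mul, this]
  have hN : (univ.filter (· ∈ N)).card = Nat.card N := (Nat.subtype_card _ (by simp)).symm
  have h2 : ∑ x ∈ univ.filter (· ∈ N), Nat.card (centralizer ({x} : Set X)) ≤ Nat.card N ^ 2 + c * Nat.card X := by
    have h3 := Fgs.kcl_sum_card_inf_centralizer N (univ : Finset X)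
    have h4 : ∑ x ∈ univ.filter (· ∈ N), Nat.card (centralizer ({x} : Set X)) =
        ∑ y : N, (univ.filter fun x : X => x * y = y * x).card := by
      rw [Finset.sum_subtype (p := (· ∈ N)) _ (by simp)]
      exact Finset.sum_congr rfl fun y _ => Nat.subtype_card _ (by simp [mem_centralizer_singleton_iff])
    rw [h4, ← h3, ← Finset.sum_filter_add_sum_filter_not univ (· ∈ N)]
    refine add_le_add ?_ ?_
    · refine (Finset.sum_le_card_nsmul _ _ (Nat.card N) fun x _ => card_le_of_le inf_le_left).trans ?_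
      rw [hN, smul_eq_mul, sq]
    · refine (Finset.sum_le_card_nsmul _ _ c fun x hx => h x (mem_filter.1 hx).2).trans ?_
      rw [smul_eq_mul, mul_comm, Nat.card_eq_fintype_card]
      exact Nat.mul_le_mul_left _ (card_le_univ _)
  have h5 : ∀ q : X ⧸ N, (univ.filter fun x : X => (x : X ⧸ N) = q).card = Nat.card N := fun q => by
    obtain ⟨y, rfl⟩ := QuotientGroup.mk_surjective q
    rw [← hN]
    refine Finset.card_bij (fun x _ => x⁻¹ * y) (fun x hx => ?_) (fun _ _ _ _ e => by simpa using e) fun n hn => ?_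
    · simpa [QuotientGroup.eq] using hx
    · exact ⟨y * n⁻¹, by simpa [QuotientGroup.eq] using hn, by simp⟩
  have h6 : ∑ x : X, Nat.card (centralizer ({(x : X ⧸ N)} : Set (X ⧸ N))) = Nat.card X * kc (X ⧸ N) := by
    rw [← Finset.sum_fiberwise (s := univ) (g := fun x : X => (x : X ⧸ N)),
      card_eq_card_quotient_mul_card_subgroup N, mul_right_comm, mul_comm (Nat.card (X ⧸ N)),
      ← Char.sum_card_centralizer, Finset.sum_mul]
    refine Finset.sum_congr rfl fun q _ => ?_
    rw [Finset.sum_congr rfl fun x hx => by rw [(mem_filter.1 hx).2], sum_const, h5, smul_eq_mul, mul_comm]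
  have h7 : ∑ x ∈ univ.filter (· ∈ N), Nat.card (centralizer ({(x : X ⧸ N)} : Set (X ⧸ N))) = Nat.card X := by
    rw [Finset.sum_congr rfl fun x hx => by rw [(QuotientGroup.eq_one_iff x).2 (mem_filter.1 hx).2], sum_const, hN,
      smul_eq_mul, card_eq_card_quotient_mul_card_subgroup N, mul_comm]
    congr 1
    rw [show centralizer ({1} : Set (X ⧸ N)) = ⊤ from eq_top_iff.2 fun x _ => by simp [mem_centralizer_singleton_iff],
      card_top]
  have h8 : ∑ x ∈ univ.filter (· ∉ N), Nat.card (centralizer ({x} : Set X)) ≤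
      c * ∑ x ∈ univ.filter (· ∉ N), Nat.card (centralizer ({(x : X ⧸ N)} : Set (X ⧸ N))) := by
    rw [Finset.mul_sum]
    exact Finset.sum_le_sum fun x hx => (h1 x).trans (by
      rw [mul_comm]; exact Nat.mul_le_mul_right _ (h x (mem_filter.1 hx).2))
  rw [← Finset.sum_filter_add_sum_filter_not univ (· ∈ N), h7] at h6
  rw [← Char.sum_card_centralizer, ← Finset.sum_filter_add_sum_filter_not univ (· ∈ N), mul_assoc, ← h6, mul_add]
  omega

theorem isNilpotent_of_inj [Group.IsNilpotent Y] (f : X →* Y) (hf : Function.Injective f) : Group.IsNilpotent X :=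
  Group.nilpotent_of_mulEquiv (MonoidHom.ofInjective hf).symm

theorem KF.of_hom [Finite X] (f : X →* Y) (h1 : Group.IsNilpotent f.ker) (h2 : Kb c Y) : KF c X :=
  ⟨f.ker, inferInstance, h1, h2.of_inj _ (QuotientGroup.kerLift_injective f)⟩

theorem KF.mono (h : KF a X) (hab : a ≤ b) : KF b X := by
  obtain ⟨N, _, h1, h2⟩ := h
  exact ⟨N, _, h1, h2.mono hab⟩

theorem KF.fit [Finite X] (h : KF c X) [(fittingSubgroup X).Normal] : Kb c (X ⧸ fittingSubgroup X) := by
  obtain ⟨N, _, h1, h2⟩ := h
  exact h2.of_surj (QuotientGroup.map N _ (MonoidHom.id X) (Core.le_fittingSubgroup h1))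
    (QuotientGroup.map_surjective_of_surjective _ _ _ (QuotientGroup.mk_surjective) _)

theorem KF.prod [Finite X] [Finite Y] [Finite Z] (f : X →* Y) (g : X →* Z) (h : ∀ x, f x = 1 → g x = 1 → x = 1)
    (h1 : KF a Y) (h2 : KF b Z) : KF (a * b) X := by
  obtain ⟨N, _, n1, h1⟩ := h1
  obtain ⟨M, _, n2, h2⟩ := h2
  let φ := ((QuotientGroup.mk' N).comp f).prod ((QuotientGroup.mk' M).comp g)
  refine KF.of_hom φ ?_ (Kb.prod (MonoidHom.fst _ _) (MonoidHom.snd _ _) (fun x a b => Prod.ext a b) h1 h2)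
  refine isNilpotent_of_inj (((f.comp φ.ker.subtype).codRestrict N fun x =>
    (QuotientGroup.eq_one_iff _).1 (congrArg Prod.fst x.2)).prod ((g.comp φ.ker.subtype).codRestrict M fun x =>
    (QuotientGroup.eq_one_iff _).1 (congrArg Prod.snd x.2))) ((injective_iff_map_eq_one _).2 fun x e => ?_)
  exact Subtype.ext (h x (congrArg (fun y => y.1.1) e) (congrArg (fun y => y.2.1) e))

theorem KF.ext [Finite X] (f : X →* Y) (h1 : KF a f.ker) (h2 : Kb b Y) : KF (a * b) X := by
  have := Core.fittingSubgroup_normal f.ker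
  have := Core.map_fittingSubgroup_normal f.ker
  let N := (fittingSubgroup f.ker).map f.ker.subtype
  refine ⟨N, this, Core.isNilpotent_map_fittingSubgroup _,
    Kb.ext (QuotientGroup.lift N f (map_subtype_le _)) ?_ h2⟩
  refine h1.fit.of_surj (QuotientGroup.lift _ (((QuotientGroup.mk' N).comp f.ker.subtype).codRestrict _
    fun x => x.2) fun x hx => Subtype.ext ((QuotientGroup.eq_one_iff _).2 ⟨x, hx, rfl⟩)) ?_
  rintro ⟨q, hq⟩
  obtain ⟨x, rfl⟩ := QuotientGroup.mk_surjective q
  exact ⟨((⟨x, hq⟩ : f.ker) : _ ⧸ _), rfl⟩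

/-- a chain out of an independent family -/
theorem exists_chain {L ι : Type*} [CompleteLattice L] [Finite ι] {t : ι → L} (ht : iSupIndep t)
    (h0 : ∀ i, t i ≠ ⊥) (P : L → Prop) (h1 : P ⊥) (h2 : ∀ x y, P x → P y → P (x ⊔ y)) (h3 : ∀ i, P (t i)) :
    ∃ s : ℕ → L, (∀ i, P (s i)) ∧ ∀ i < Nat.card ι, s i < s (i + 1) := by
  classical
  let e := Finite.equivFin ι
  let u : ℕ → L := fun n => if h : n < Nat.card ι then t (e.symm ⟨n, h⟩) else ⊥
  let s : ℕ → L := fun n => Nat.rec ⊥ (fun n x => x ⊔ u n) n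
  refine ⟨s, fun i => ?_, fun i hi => lt_of_le_of_ne le_sup_left fun e0 => ?_⟩
  · induction i with
    | zero => exact h1
    | succ i ih =>
      refine h2 _ _ ih ?_
      simp only [u]
      split_ifs
      exacts [h3 _, h1]
  · have h4 : ∀ j ≤ i, s j ≤ ⨆ (k) (_ : k ≠ e.symm ⟨i, hi⟩), t k := fun j hj => by
      induction j with
      | zero => exact bot_le
      | succ j ih =>
        refine sup_le (ih (by omega)) ?_
        simp only [u, dif_pos (show j < Nat.card ι by omega)]
        exact le_iSup₂_of_le (f := fun k (_ : k ≠ e.symm ⟨i, hi⟩) => t k) _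
          (fun e1 => absurd (congrArg Fin.val (e.symm.injective e1)) (by simp; omega)) le_rfl
    have h5 : t (e.symm ⟨i, hi⟩) ≤ s i := by
      rw [e0]
      exact le_sup_of_le_right (by simp only [u, dif_pos hi, le_refl])
    exact h0 _ ((ht _).eq_bot_of_le (h5.trans (h4 i le_rfl)))

end CfsgLib.KFit
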