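import Mathlib
import Cfsg.Agent.Lib.Fgs.AutBound
import Cfsg.Agent.Lib.Core.MinNormal

/-!
# A solvable permutation group of degree `n` has order at most `3 ^ (n - 1)`
-/

set_option autoImplicit false

namespace CfsgLib.KFit

open Cfsg Subgroup Finset MulAction

universe u

theorem sq_le_three_pow {p : ℕ} (hp : 3 ≤ p) : p ^ 2 ≤ 3 ^ (p - 1) := by
  induction p, hp using Nat.le_induction with
  | base => norm_num
  | succ p hp ih =>
    obtain ⟨q, rfl⟩ : ∃ q, p = q + 1 := ⟨p - 1, by omega⟩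
    rw [Nat.add_sub_cancel] at *
    rw [pow_succ 3]
    nlinarith

theorem pow_step {p a : ℕ} (hp : 1 ≤ p) (h1 : p ^ (a * (a + 1)) ≤ 3 ^ (p ^ a - 1))
    (h2 : p ^ (2 * (a + 1)) ≤ 3 ^ ((p - 1) * p ^ a)) : p ^ ((a + 1) * (a + 1 + 1)) ≤ 3 ^ (p ^ (a + 1) - 1) := by
  obtain ⟨q, rfl⟩ : ∃ q, p = q + 1 := ⟨p - 1, by omega⟩
  have h3 : 0 < (q + 1) ^ a := by positivity
  rw [show (a + 1) * (a + 1 + 1) = a * (a + 1) + 2 * (a + 1) by ring, pow_add,
    show (q + 1) ^ (a + 1) - 1 = (q + 1) ^ a - 1 + (q + 1 - 1) * (q + 1) ^ a by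
      rw [pow_succ, Nat.add_sub_cancel, mul_add, mul_one, mul_comm q]; omega, pow_add]
  exact Nat.mul_le_mul h1 h2

theorem pow_le_of_three {p : ℕ} (hp : 3 ≤ p) (a : ℕ) : p ^ (a * (a + 1)) ≤ 3 ^ (p ^ a - 1) := by
  induction a with
  | zero => simp
  | succ a ih =>
    refine pow_step (by omega) ih ?_
    rw [pow_mul, pow_mul]
    exact (Nat.pow_le_pow_left (sq_le_three_pow hp) _).trans
      (Nat.pow_le_pow_right (by positivity) (Nat.lt_pow_self (by omega)))

theorem pow_le_of_two {a : ℕ} (ha : 4 ≤ a) : 2 ^ (a * (a + 1)) ≤ 3 ^ (2 ^ a - 1) := by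
  induction a, ha using Nat.le_induction with
  | base => norm_num
  | succ a ha ih =>
    refine pow_step (by omega) ih ((Nat.pow_le_pow_left (by norm_num : 2 ≤ 3) _).trans
      (Nat.pow_le_pow_right (by norm_num) ?_))
    obtain ⟨b, rfl⟩ : ∃ b, a = b + 2 := ⟨a - 2, by omega⟩
    have := Nat.lt_two_pow_self (n := b)
    rw [pow_add]
    omega

theorem aff_le {p : ℕ} (hp : p.Prime) (a : ℕ) : p ^ a * ∏ i ∈ range a, (p ^ a - p ^ i) ≤ 3 ^ (p ^ a - 1) := by
  have h1 : p ^ a * ∏ i ∈ range a, (p ^ a - p ^ i) ≤ p ^ (a * (a + 1)) := by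
    rw [pow_mul, pow_succ']
    exact Nat.mul_le_mul_left _ ((prod_le_pow_card _ _ _ fun i _ => Nat.sub_le _ _).trans_eq (by rw [card_range]))
  rcases hp.two_le.eq_or_lt with rfl | h
  · rcases lt_or_ge a 4 with h | h
    · interval_cases a <;> decide
    · exact h1.trans (pow_le_of_two h)
  · exact h1.trans (pow_le_of_three h a)

theorem card_le_of_trans {Ω : Type*} [Finite Ω] (X : Subgroup (Equiv.Perm Ω)) {N : Subgroup X} [N.Normal] {p : ℕ}
    (hp : p.Prime) (hN : IsElementaryAbelian p N) (ω : Ω) (ht : ∀ x, ∃ n ∈ N, (n : X) • ω = x) :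
    Nat.card X ≤ 3 ^ (Nat.card Ω - 1) := by
  have := Fact.mk hp
  have := hN.1
  have key : ∀ g : X, g • ω = ω → (∀ n ∈ N, g * n = n * g) → g = 1 := fun g h1 h2 => Subtype.ext (Equiv.ext fun x => by
    obtain ⟨n, hn, rfl⟩ := ht x
    change g • n • ω = n • ω
    rw [← mul_smul, h2 n hn, mul_smul, h1])
  have h1 : Nat.card N = Nat.card Ω := Nat.card_eq_of_bijective (fun n : N => (n : X) • ω) ⟨fun n m e => by
    have := key ((m : X)⁻¹ * n) (by rw [mul_smul, inv_smul_eq_iff]; exact e) fun k hk =>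
      setLike_mul_comm (mul_mem (inv_mem m.2) n.2) hk
    exact Subtype.ext (inv_mul_eq_one.1 this).symm, fun x => by
      obtain ⟨n, hn, e⟩ := ht x
      exact ⟨⟨n, hn⟩, e⟩⟩
  obtain ⟨a, ha⟩ := (Core.isElementaryAbelian_isPGroup hN).exists_card_eq
  have h2 : Nat.card (stabilizer X ω) ≤ Nat.card (MulAut N) :=
    Nat.card_le_card_of_injective _ (((injective_iff_map_eq_one
      ((MulAut.conjNormal (H := N)).comp (stabilizer X ω).subtype)).2 fun g e => Subtype.ext (key g g.2 fun n hn =>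
        mul_inv_eq_iff_eq_mul.1 (congrArg (fun u : N => u.1) (DFunLike.congr_fun e ⟨n, hn⟩) :))))
  have h3 := Nat.le_of_dvd (Finset.prod_pos fun i hi => Nat.sub_pos_of_lt
    (Nat.pow_lt_pow_right hp.one_lt (mem_range.1 hi)))
    (Fgs.card_mulAut_dvd_of_elementary (fun x : N => Subtype.ext (hN.2 x x.2)) ha)
  have h4 : (stabilizer X ω).index = Nat.card Ω := by
    rw [index_stabilizer, show orbit X ω = Set.univ from Set.eq_univ_of_forall fun x => by
      obtain ⟨n, -, e⟩ := ht x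
      exact ⟨n, e⟩, Set.ncard_univ]
  rw [← (stabilizer X ω).index_mul_card, h4, ← h1, ha]
  exact (Nat.mul_le_mul_left _ (h2.trans h3)).trans (aff_le hp a)

theorem perm_bound_aux (n : ℕ) : ∀ (Ω : Type u) [Finite Ω] (X : Subgroup (Equiv.Perm Ω)) [Group.IsSolvable X],
    Nat.card Ω = n → Nat.card X ≤ 3 ^ (n - 1) := by
  induction n using Nat.strong_induction_on with
  | _ n ih =>
  intro Ω _ X _ hn
  classical
  rcases subsingleton_or_nontrivial X with h | h
  · rw [Nat.card_unique]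
    exact Nat.one_le_pow _ _ (by norm_num)
  have ih' : ∀ (Ω' : Type u) [Finite Ω'] (Y : Subgroup X) (φ : Y →* Equiv.Perm Ω'), Nat.card Ω' < n →
      Nat.card φ.range ≤ 3 ^ (Nat.card Ω' - 1) := fun Ω' _ Y φ h => by
    have := Group.isSolvable_of_surjective φ.rangeRestrict_surjective
    exact ih _ h Ω' φ.range rfl
  obtain ⟨p, N, hp, _, h1, hN, -⟩ := Core.exists_elementaryAbelian_minimal_normal X
  let Q := orbitRel.Quotient N Ω
  let q : Ω → Q := Quotient.mk''
  let act : MulAction X Q :=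
    { smul := fun g => Quotient.map' (g • ·) (by
        rintro x y ⟨m, rfl⟩
        exact ⟨⟨g * m * g⁻¹, Normal.conj_mem inferInstance _ m.2 g⟩, by simp [Subgroup.smul_def, mul_smul]⟩)
      one_smul := fun o => Quotient.inductionOn' o fun x => congrArg q (one_smul X x)
      mul_smul := fun g h o => Quotient.inductionOn' o fun x => congrArg q (mul_smul g h x) }
  let φ := (toPermHom X Q).comp (⊤ : Subgroup X).subtype
  have hφ : ∀ g : (⊤ : Subgroup X), ∀ x, φ g (q x) = q (g • x) := fun _ _ => rfl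
  obtain ⟨m, hm, h2⟩ : ∃ m ∈ N, m ≠ 1 := by
    by_contra h2
    push Not at h2
    exact h1 (eq_bot_iff.2 h2)
  obtain ⟨ω, hω⟩ : ∃ ω, m • ω ≠ ω := by
    exact not_forall.1 fun h3 => h2 (Subtype.ext (Equiv.ext h3))
  by_cases ht : ∀ x, ∃ n ∈ N, (n : X) • ω = x
  · exact hn ▸ card_le_of_trans X hp hN ω ht
  have hq : Function.Surjective q := Quotient.mk''_surjective
  have hQ : Nat.card Q < n := by
    refine hn ▸ lt_of_le_of_ne (Nat.card_le_card_of_surjective q hq) fun e => hω ?_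
    exact ((Nat.bijective_iff_surjective_and_card q).2 ⟨hq, e.symm⟩).1 (Quotient.sound' ⟨⟨m, hm⟩, rfl⟩)
  have := Fintype.ofFinite Q
  have hs : ∑ o : Q, Nat.card {x // q x = o} = n := by
    rw [← hn, ← Nat.card_sigma]
    exact Nat.card_congr (Equiv.sigmaFiberEquiv q)
  have hp0 : ∀ o : Q, 0 < Nat.card {x // q x = o} := fun o => by
    obtain ⟨x, hx⟩ := hq o
    have : Nonempty {x // q x = o} := ⟨⟨x, hx⟩⟩
    exact Nat.card_pos
  have hlt : ∀ o : Q, Nat.card {x // q x = o} < n := fun o => by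
    push Not at ht
    obtain ⟨x, hx⟩ := ht
    have h3 : q x ≠ q ω := fun e => by
      obtain ⟨k, hk⟩ := Quotient.exact' e
      exact hx k k.2 hk
    obtain ⟨o', h4⟩ : ∃ o', o' ≠ o := by
      by_cases h4 : q x = o
      exacts [⟨q ω, fun e => h3 (h4.trans e.symm)⟩, ⟨_, h4⟩]
    rw [← hs]
    exact Finset.single_lt_sum (f := fun o : Q => Nat.card {x // q x = o}) h4 (mem_univ _) (mem_univ _) (hp0 _) fun _ _ _ => Nat.zero_le _
  let K := φ.ker.map (⊤ : Subgroup X).subtype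
  have hK : ∀ g : K, ∀ x, q ((g : X) • x) = q x := by
    rintro ⟨_, g, hg, rfl⟩ x
    exact (hφ g x).symm.trans (by rw [show φ g = 1 from hg]; rfl)
  let ψ : ∀ o : Q, K →* Equiv.Perm {x // q x = o} := fun o => MonoidHom.mk'
    (fun g => Equiv.Perm.subtypePerm (g : X).1 fun x => by rw [show q (g.1.1 x) = q x from hK g x])
    fun _ _ => Equiv.ext fun _ => rfl
  have h3 : Nat.card K ≤ ∏ o : Q, 3 ^ (Nat.card {x // q x = o} - 1) := by
    refine (Nat.card_le_card_of_injective (fun g o => (ψ o).rangeRestrict g) fun g g' e => ?_).trans ?_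
    · exact Subtype.ext (Subtype.ext (Equiv.ext fun x =>
        congrArg (fun f : (ψ (q x)).range => (f.1 ⟨x, rfl⟩).1) (congrFun e (q x))))
    · rw [Nat.card_pi]
      exact prod_le_prod' fun o _ => ih' _ K (ψ o) (hlt o)
  have h4 := ih' Q ⊤ φ hQ
  have h5 : ∑ o : Q, (Nat.card {x // q x = o} - 1) + Nat.card Q = n := by
    rw [← hs, Nat.card_eq_fintype_card (α := Q), ← card_univ, card_eq_sum_ones, ← sum_add_distrib]
    exact sum_congr rfl fun o _ => Nat.sub_add_cancel (hp0 o)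
  have : Nonempty Q := ⟨q ω⟩
  have h6 : 0 < Nat.card Q := Nat.card_pos
  rw [prod_pow_eq_pow_sum, Core.card_map_subtype] at h3
  rw [← card_top (G := X), ← φ.ker.card_mul_index, index_ker,
    show n - 1 = ∑ o : Q, (Nat.card {x // q x = o} - 1) + (Nat.card Q - 1) by omega, pow_add]
  exact Nat.mul_le_mul h3 h4

theorem perm_bound {X Ω : Type*} [Group X] [Group.IsSolvable X] [Finite Ω] (φ : X →* Equiv.Perm Ω) :
    Nat.card φ.range ≤ 3 ^ (Nat.card Ω - 1) :=
  have := Group.isSolvable_of_surjective φ.rangeRestrict_surjective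
  perm_bound_aux _ Ω φ.range rfl

end CfsgLib.KFit
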