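import Mathlib
import Cfsg.Agent.Lib.KFit.Basic
import Cfsg.Agent.Lib.KFit.Perm
import Cfsg.Agent.Lib.Base.Imprim
import Cfsg.Agent.Lib.RealCl.Fld

/-!
# Class numbers of subgroups of `GL₂(q)`; irreducible modules of solvable groups
-/

set_option autoImplicit false

namespace CfsgLib.KFit

open Cfsg Subgroup CfsgLib.Base

theorem kb_two {K V X : Type*} [Field K] [Finite K] [AddCommGroup V] [Module K V] [Group X] [Finite X]
    (ρ : Representation K X V) (hρ : Function.Injective ρ) (h2 : Module.finrank K V = 2) :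
    Kb (Nat.card K ^ 2 + Nat.card K - 3) X := by
  have : FiniteDimensional K V := .of_finrank_eq_succ h2
  have : Finite V := Module.finite_of_finite K
  have : Nontrivial V := Module.nontrivial_of_finrank_eq_succ h2
  have hq : 1 < Nat.card K := Finite.one_lt_card
  have hV : Nat.card V = Nat.card K ^ 2 := by rw [Module.natCard_eq_pow_finrank (K := K), h2]
  have hne : ∀ (g : X) (v : V), v ≠ 0 → ρ g v ≠ 0 := fun g v hv e => hv (by
    rw [← ρ.inv_self_apply g v, e, map_zero])
  let S : Set X := {g | ∃ c : K, ρ g = c • 1}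
  have h1 : S.ncard ≤ Nat.card K - 1 := by
    choose c hc' using fun g : S => g.2
    rw [← Nat.card_coe_set_eq, ← Set.ncard_singleton (0 : K), ← Set.ncard_compl, ← Nat.card_coe_set_eq]
    refine Nat.card_le_card_of_injective (fun g => ⟨c g, fun e => ?_⟩) fun g g' e => ?_
    · obtain ⟨v, hv⟩ := exists_ne (0 : V)
      exact hne g v hv (by rw [hc', show c g = 0 from e, zero_smul]; rfl)
    · exact Subtype.ext (hρ (by rw [hc', hc', show c g = c g' from congrArg Subtype.val e]))
  refine (Kb.of_cent (c := Nat.card K ^ 2 - 1) S ⟨1, by simp⟩ (Nat.sub_pos_of_lt (by nlinarith)) fun g hg => ?_).mono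
    (by have : 1 ≤ Nat.card K ^ 2 := by nlinarith
        omega)
  obtain ⟨v, hv⟩ := not_forall.1 fun h => hg (LinearMap.exists_eq_smul_id_of_forall_notLinearIndependent h)
  have hv := not_not.1 hv
  rw [← hV, ← Set.ncard_singleton (0 : V), ← Set.ncard_compl, ← Nat.card_coe_set_eq]
  refine Nat.card_le_card_of_injective (fun h => ⟨ρ h v, hne _ _ (hv.ne_zero 0)⟩) fun h h' e => Subtype.ext (hρ ?_)
  have e' : ρ h v = ρ h' v := congrArg Subtype.val e
  have h3 : ∀ h : centralizer ({g} : Set X), ρ h (ρ g v) = ρ g (ρ h v) := fun h => by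
    rw [← Module.End.mul_apply, ← map_mul, mem_centralizer_singleton_iff.1 h.2, map_mul, Module.End.mul_apply]
  refine LinearMap.ext_on_range (hv.span_eq_top_of_card_eq_finrank (by simp [h2])) fun i => ?_
  fin_cases i
  · exact e'
  · exact (h3 h).trans ((congrArg _ e').trans (h3 h').symm)

theorem kb_GL_two_three : Kb 9 (GL (Fin 2) (ZMod 3)) := by
  have := kb_two (K := ZMod 3) (V := Fin 2 → ZMod 3)
    ((Matrix.toLinAlgEquiv' (R := ZMod 3) (n := Fin 2)).toMonoidHom.comp (Units.coeHom _))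
    (Matrix.toLinAlgEquiv'.injective.comp Units.val_injective) (by simp)
  simpa using this

theorem two_le_three_pow {p : ℕ} (hp : p.Prime) : p ^ 2 + p - 3 ≤ 3 ^ (p - 1) := by
  rcases hp.two_le.eq_or_lt with rfl | h
  · norm_num
  clear hp
  induction p, h using Nat.le_induction with
  | base => norm_num
  | succ p hp ih =>
    obtain ⟨q, rfl⟩ : ∃ q, p = q + 1 := ⟨p - 1, by omega⟩
    rw [Nat.add_sub_cancel] at *
    rw [pow_succ 3]
    have h1 : 3 ≤ (q + 1) ^ 2 + (q + 1) := by nlinarith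
    have h2 : (q + 1 + 1) ^ 2 + (q + 1 + 1) + 6 ≤ 3 * ((q + 1) ^ 2 + (q + 1)) := by nlinarith
    omega

variable {X W : Type*} [Group X] [Finite X] [AddCommGroup W] [Finite W] [DistribMulAction X W]

omit [Finite X] in
theorem card_modEq {l : ℕ} (hl : l.Prime) {A : Subgroup X} (hA : IsPGroup l A) {U : AddSubgroup W} (hU : MInv A U)
    (h : ∀ u ∈ U, (∀ a ∈ A, a • u = u) → u = 0) : Nat.card U ≡ 1 [MOD l] := by
  have := Fact.mk hl
  let := resAct hU
  have h1 := hA.card_modEq_card_fixedPoints U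
  rwa [show MulAction.fixedPoints A U = {0} from Set.eq_singleton_iff_unique_mem.2 ⟨fun a => smul_zero a,
    fun u hu => Subtype.ext (h u u.2 fun a ha => congrArg Subtype.val (hu ⟨a, ha⟩))⟩, Nat.card_unique (α := ({0} : Set U))] at h1

/-- the fixed points of an element -/
def fx (W : Type*) [AddCommGroup W] [DistribMulAction X W] (t : X) : AddSubgroup W where
  carrier := {w | t • w = w}
  zero_mem' := smul_zero t
  add_mem' {a b} ha hb := by rw [Set.mem_ofPred_eq, smul_add, ha, hb]
  neg_mem' {a} ha := by rw [Set.mem_ofPred_eq, smul_neg, ha]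

omit [Finite X] in
theorem card_fx_modEq {l : ℕ} (hl : l.Prime) {t : X} (ht : t ^ l = 1) : Nat.card W ≡ Nat.card (fx W t) [MOD l] := by
  have := Fact.mk hl
  have h1 := (Core.isElementaryAbelian_isPGroup (Core.isElementaryAbelian_zpowers ht)).card_modEq_card_fixedPoints W
  rwa [show MulAction.fixedPoints (zpowers t) W = (fx W t : Set W) from Set.ext fun w =>
    ⟨fun h => h ⟨t, mem_zpowers t⟩, fun h a => zpowers_le.2 (MulAction.mem_stabilizer_iff.2 h) a.2⟩] at h1

variable [FaithfulSMul X W]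

omit [Finite W] in
/-- an abelian group acting coprimely has a regular orbit -/
theorem exists_regular (A : Subgroup X) (hc : ∀ x ∈ A, ∀ y ∈ A, x * y = y * x)
    (h : ∀ w : W, Nat.card A • w = 0 → w = 0) : ∃ v : W, ∀ a ∈ A, a • v = v → a = 1 := by
  obtain ⟨v, hv⟩ := exists_minimalFor_of_wellFoundedLT (fun _ : W => True)
    (fun v => A ⊓ MulAction.stabilizer X v) ⟨0, trivial⟩
  refine ⟨v, fun s hs e => by_contra fun h1 => ?_⟩
  have key : ∀ y : W, s • (s • y - y) = s • y - y → s • y - y = 0 := fun y e => by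
    have h2 : ∀ n : ℕ, s ^ n • y = y + n • (s • y - y) ∧ s • n • (s • y - y) = n • (s • y - y) := fun n => by
      induction n with
      | zero => simp
      | succ n ih =>
        refine ⟨?_, by rw [succ_nsmul, smul_add, ih.2, e]⟩
        rw [pow_succ', mul_smul, ih.1, smul_add, ih.2, succ_nsmul]
        abel
    have h3 := (h2 (Nat.card A)).1
    rw [show s ^ Nat.card A = 1 from congrArg Subtype.val (pow_card_eq_one' (x := (⟨s, hs⟩ : A))), one_smul] at h3
    exact h _ (left_eq_add.1 h3)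
  obtain ⟨y, hy⟩ := not_forall.1 fun h2 : ∀ y : W, s • y = y => h1 (eq_of_smul_eq_smul fun y : W => by
    rw [h2, one_smul])
  have h4 : ∀ a ∈ A, a • (v + (s • y - y)) = v + (s • y - y) → a • v = v ∧ a • (s • y - y) = s • y - y := by
    intro a ha e1
    have h5 : s • (y - a • y) - (y - a • y) = a • v - v := by
      rw [smul_add, smul_sub, ← mul_smul, hc a ha s hs, mul_smul] at e1
      rw [smul_sub, sub_eq_iff_eq_add, ← sub_eq_zero, ← sub_eq_zero.2 e1.symm]
      abel
    have h6 := key (y - a • y) (by rw [h5, smul_sub, ← mul_smul, hc s hs a ha, mul_smul, e])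
    rw [h5, sub_eq_zero] at h6
    rw [smul_add, h6] at e1
    exact ⟨h6, add_left_cancel e1⟩
  have h7 := hv.le_of_le trivial (j := v + (s • y - y)) (fun a ha => ⟨ha.1, (h4 a ha.1 ha.2).1⟩) ⟨hs, e⟩
  exact hy (sub_eq_zero.1 (key y (h4 s hs h7.2).2))

omit [FaithfulSMul X W] [Finite X] in
theorem card_le_of_regular {A : Subgroup X} {v : W} (h : ∀ a ∈ A, a • v = v → a = 1) : Nat.card A ≤ Nat.card W :=
  Nat.card_le_card_of_injective (fun a : A => (a : X) • v) fun a b e => Subtype.ext (inv_mul_eq_one.1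
    (h _ (mul_mem (inv_mem b.2) a.2) (by rw [mul_smul, inv_smul_eq_iff]; exact e))).symm

variable (hI : Irr X W)
include hI

omit [Finite X] [Finite W] in
theorem eq_zero_of_fix {A : Subgroup X} [hA : A.Normal] (h0 : A ≠ ⊥) {w : W} (hw : ∀ a ∈ A, a • w = w) : w = 0 := by
  rcases hI (FixedPoints.addSubgroup A W) (fun g u hu a => by
    have := hu ⟨g⁻¹ * a * g⁻¹⁻¹, hA.conj_mem _ a.2 _⟩
    rwa [Subgroup.mk_smul, inv_inv, mul_smul, mul_smul, inv_smul_eq_iff] at this) with h | h
  · exact AddSubgroup.mem_bot.1 (h ▸ fun a => hw a a.2)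
  · refine absurd (eq_bot_iff.2 fun a ha => eq_of_smul_eq_smul fun u : W => ?_) h0
    rw [one_smul]
    exact (h ▸ AddSubgroup.mem_top u : u ∈ FixedPoints.addSubgroup A W) ⟨a, ha⟩

theorem card_modEq_of_dvd {l : ℕ} (hl : l.Prime) (h : l ∣ Nat.card (fittingSubgroup X)) :
    pCore l X ≠ ⊥ ∧ Nat.card W ≡ 1 [MOD l] := by
  obtain ⟨x, h1, h2⟩ := Core.exists_mem_orderOf_eq_of_dvd_card hl h
  have h3 : pCore l X ≠ ⊥ := fun e => hl.one_lt.ne' (h2.symm.trans (orderOf_eq_one_iff.2 (mem_bot.1 (e ▸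
    Core.le_pCore_of_le_fittingSubgroup (zpowers_le.2 h1) (Core.isElementaryAbelian_isPGroup
      (Core.isElementaryAbelian_zpowers (h2 ▸ pow_orderOf_eq_one x))) (mem_zpowers x)))))
  have := Fact.mk hl
  have := pCore_normal l X
  exact ⟨h3, AddSubgroup.card_top (G := W) ▸ card_modEq hl (Core.isPGroup_pCore l X) (fun _ _ _ => trivial)
    fun u _ hu => eq_zero_of_fix hI h3 hu⟩

theorem kb_of_irr [Nontrivial W] {c : ℕ} (h1 : 3 * Nat.card X ≤ 4 * c) (h2 : Nat.card W ≤ c) : Kb c X := by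
  by_cases h : ∃ x y : X, x * y ≠ y * x
  · exact Kb.of_three h h1
  push Not at h
  obtain ⟨v, hv⟩ := exists_ne (0 : W)
  refine Kb.of_card (card_top (G := X) ▸ (card_le_of_regular (v := v) fun a _ e => by_contra fun h3 => ?_).trans h2)
  have : (zpowers a).Normal := ⟨fun n hn g => by rwa [h g n, mul_inv_cancel_right]⟩
  exact hv (eq_zero_of_fix hI (zpowers_ne_bot.2 h3) (zpowers_le.2 (MulAction.mem_stabilizer_iff.2 e)))

end CfsgLib.KFit
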