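import Mathlib
import Cfsg.Agent.Lib.KFit.GL2
import Cfsg.Agent.Lib.InvChar.AutElem
import Cfsg.Agent.Lib.Symp.Order
import Cfsg.Agent.S0246

/-!
# Solvable irreducible subgroups of `Sp₄(2)`, `Sp₆(2)`, `Sp₄(3)`
-/

set_option autoImplicit false

namespace CfsgLib.KFit

open Cfsg Subgroup CfsgLib.Base

variable {X : Type*} [Group X] [Finite X]

theorem kb_nine (T : Subgroup X) [T.Normal] (hT : Nat.card T ∣ 3 ^ 2) (hC : centralizer (T : Set X) ≤ T)
    (h : Kb 9 (X ⧸ T)) (h81 : ¬ 81 ∣ Nat.card X) : Kb 27 X := fun H => by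
  let f := (QuotientGroup.mk' T).comp H.subtype
  have hf : ∀ x : H, x ∈ f.ker ↔ x.1 ∈ T := fun x => QuotientGroup.eq_one_iff _
  have h1 : f.ker.map H.subtype ≤ T := by
    rintro _ ⟨x, hx, rfl⟩
    exact (hf x).1 hx
  have h2 := card_dvd_of_le h1
  rw [Core.card_map_subtype] at h2
  obtain ⟨k, hk, h3⟩ := (Nat.dvd_prime_pow Nat.prime_three).1 (h2.trans hT)
  rcases hk.eq_or_lt with rfl | hk
  swap
  · have h4 : Nat.card f.ker ≤ 3 := by rw [h3]; interval_cases k <;> norm_num
    exact (kc_le_ker_mul f).trans (Nat.mul_le_mul ((kc_le_card _).trans h4) (h _))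
  have h4 : f.ker.map H.subtype = T :=
    eq_of_le_of_card_ge h1 (by rw [Core.card_map_subtype, h3]; exact Nat.le_of_dvd (by norm_num) hT)
  have h5 := kc_mul_le_of_normal (c := 3) f.ker fun x hx => by
    obtain ⟨j, hj, h6⟩ := (Nat.dvd_prime_pow Nat.prime_three).1
      (h3 ▸ card_dvd_of_le (inf_le_left : f.ker ⊓ centralizer {x} ≤ f.ker))
    rcases hj.eq_or_lt with rfl | hj
    · have h7 := eq_of_le_of_card_ge (inf_le_left : f.ker ⊓ centralizer {x} ≤ f.ker) (by rw [h3, h6])
      refine absurd ((hf x).2 (hC fun t ht => ?_)) hx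
      obtain ⟨y, hy, rfl⟩ := h4.ge ht
      exact congrArg Subtype.val (mem_centralizer_singleton_iff.1 (h7.ge hy).2)
    · rw [h6]; interval_cases j <;> norm_num
  have h6 := (h.of_inj _ (QuotientGroup.kerLift_injective f)).kc_le
  have h7 := kc_le_card (H ⧸ f.ker)
  have h8 := card_eq_card_quotient_mul_card_subgroup f.ker
  have h9 : 0 < Nat.card (H ⧸ f.ker) := Nat.card_pos
  have h10 : Nat.card (H ⧸ f.ker) ≠ 9 := fun e => h81 ((show 81 ∣ Nat.card H by rw [h8, e, h3]; norm_num).trans
    (card_subgroup_dvd_card H))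
  rw [h8, h3] at h5
  generalize Nat.card (H ⧸ f.ker) = q at *
  generalize kc (H ⧸ f.ker) = m at *
  by_contra h11
  have h12 : 28 * (q * 3 ^ 2) ≤ 81 + 3 * (q * 3 ^ 2) * m := (Nat.mul_le_mul_right _ (by omega)).trans h5
  have h13 : q ≤ 9 := by nlinarith
  interval_cases q <;> omega

theorem card_pCore_dvd {p k n : ℕ} (hp : p.Prime) (h : Nat.card X ∣ n) (hk : ¬ p ^ (k + 1) ∣ n) :
    Nat.card (pCore p X) ∣ p ^ k := by
  have := Fact.mk hp
  obtain ⟨j, hj⟩ := (Core.isPGroup_pCore p X).exists_card_eq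
  rw [hj]
  refine pow_dvd_pow p (by_contra fun h1 => hk ((pow_dvd_pow p (not_le.1 h1)).trans ?_))
  exact hj ▸ (card_subgroup_dvd_card _).trans h

theorem cent_pCore_le [Group.IsSolvable X] {p : ℕ} (hp : p.Prime)
    (h : ∀ l, l.Prime → l ∣ Nat.card (fittingSubgroup X) → l = p) :
    centralizer (pCore p X : Set X) ≤ pCore p X := by
  have := Fact.mk hp
  have h1 : fittingSubgroup X = pCore p X := le_antisymm (Core.le_pCore_of_le_fittingSubgroup le_rfl
    (IsPGroup.of_card (Nat.eq_prime_pow_of_unique_prime_dvd Nat.card_pos.ne' fun hl h1 => h _ hl h1)))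
    (Core.pCore_le_fittingSubgroup hp)
  exact h1 ▸ Core.centralizer_fittingSubgroup_le

theorem orderOf_ne_fifteen (σ : Equiv.Perm (Fin 6)) : orderOf σ ≠ 15 := fun h => by
  have h1 : 15 ∣ σ.cycleType.prod := by
    rw [← h, ← σ.lcm_cycleType]
    exact Multiset.lcm_dvd.2 fun b hb => Multiset.dvd_prod hb
  obtain ⟨a, ha, h3⟩ := Nat.prime_three.prime.exists_mem_multiset_dvd ((by norm_num : 3 ∣ 15).trans h1)
  obtain ⟨b, hb, h5⟩ := Nat.prime_five.prime.exists_mem_multiset_dvd ((by norm_num : 5 ∣ 15).trans h1)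
  have h6 := σ.sum_cycleType_le
  have h7 := Equiv.Perm.two_le_of_mem_cycleType ha
  have h8 := Equiv.Perm.two_le_of_mem_cycleType hb
  rw [Fintype.card_fin, ← Multiset.cons_erase hb, Multiset.sum_cons] at h6
  have h9 := Multiset.le_sum_of_mem ((Multiset.mem_erase_of_ne (show a ≠ b by omega)).2 ha)
  omega

variable [Group.IsSolvable X]

theorem kb_sp43 (f : X →* Matrix.symplecticGroup (Fin 2) (ZMod 3)) (hf : Function.Injective f) : Kb (3 ^ 8) X := by
  have hc : Nat.card (Matrix.symplecticGroup (Fin 2) (ZMod 3)) = 51840 := by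
    rw [Symp.card_sp]; simp [Finset.prod_range_succ]
  have hp := Symp.commutator_eq_top (m := 2) (F := ZMod 3) (by simp)
  have h1 := f.range.index_mul_card
  rw [hc, ← Nat.card_congr (MonoidHom.ofInjective hf).toEquiv] at h1
  refine Kb.of_card (by_contra fun h => ?_)
  have h2 : f.range.index ≤ 7 := by nlinarith
  rcases Symp.le_center_or_eq_top hp f.range.normalCore with h3 | h3
  · have h4 := card_le_of_le h3
    rw [Cfsg.Agent.S0246.result (ZMod.card 3) 2 (by norm_num)] at h4
    have h5 := f.range.normalCore.index_mul_card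
    have h6 : f.range.normalCore.index ≤ 5040 := by
      rw [normalCore_eq_ker, index_ker]
      refine (card_le_card_group _).trans ?_
      rw [Nat.card_perm]
      exact Nat.factorial_le h2
    rw [hc] at h5
    norm_num at h4
    nlinarith
  · have := Group.isSolvable_of_surjective (MonoidHom.range_eq_top.1 (top_le_iff.1 (h3.ge.trans f.range.normalCore_le)))
    have : Nontrivial (Matrix.symplecticGroup (Fin 2) (ZMod 3)) := Finite.one_lt_card_iff_nontrivial.1 (by omega)
    exact (Group.IsSolvable.commutator_lt_top_of_nontrivial _).ne hp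

variable {W : Type*} [AddCommGroup W] [Finite W] [DistribMulAction X W] [FaithfulSMul X W] (hI : Irr X W)
include hI

theorem kb_sp42 (hW : Nat.card W = 16) (f : X →* Equiv.Perm (Fin 6)) (hf : Function.Injective f) : Kb (3 ^ 3) X := by
  have hc : Nat.card X ∣ 720 := by
    have := card_dvd_of_injective f hf
    rwa [Nat.card_perm, Nat.card_fin] at this
  have h1 : ∀ l, l.Prime → l ∣ Nat.card (fittingSubgroup X) → l = 3 ∨ l = 5 := fun l hl h => by
    have h2 := (card_modEq_of_dvd hI hl h).2.symm.dvd'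
    rw [hW] at h2
    exact ((Nat.Prime.dvd_mul hl).1 (show l ∣ 3 * 5 from h2)).imp (Nat.prime_dvd_prime_iff_eq hl Nat.prime_three).1
      (Nat.prime_dvd_prime_iff_eq hl Nat.prime_five).1
  by_cases h5 : 5 ∣ Nat.card (fittingSubgroup X)
  · have := Fact.mk Nat.prime_five
    have h3 : ¬ 3 ∣ Nat.card (fittingSubgroup X) := fun h3 => by
      have := Fact.mk Nat.prime_three
      have := Core.isNilpotent_fittingSubgroup X
      obtain ⟨x, hx⟩ := exists_prime_orderOf_dvd_card' 3 h3
      obtain ⟨y, hy⟩ := exists_prime_orderOf_dvd_card' 5 h5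
      have h6 : (orderOf x).Coprime (orderOf y) := by rw [hx, hy]; norm_num
      refine orderOf_ne_fifteen (f (x * y : fittingSubgroup X)) ?_
      rw [orderOf_injective f hf, Subgroup.orderOf_coe,
        (Core.commute_of_coprime_orderOf_of_isNilpotent h6).orderOf_mul_eq_mul_orderOf_of_coprime h6, hx, hy]
    have h6 := Nat.le_of_dvd (by norm_num) (card_pCore_dvd (k := 1) Nat.prime_five hc (by norm_num))
    obtain ⟨g, hg⟩ := InvChar.exists_quot_pCore_hom_GL (n := 1) (cent_pCore_le Nat.prime_five fun l hl h =>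
      (h1 l hl h).resolve_left fun e => h3 (e ▸ h)) ((Nat.le_of_dvd Nat.card_pos (index_dvd_card _)).trans h6)
    have h7 := Nat.card_le_card_of_injective g hg
    rw [Matrix.card_GL_field] at h7
    refine Kb.of_card ?_
    rw [card_eq_card_quotient_mul_card_subgroup (pCore 5 X)]
    exact (Nat.mul_le_mul h7 h6).trans (by simp)
  · have := Fact.mk Nat.prime_three
    have h6 := card_pCore_dvd (k := 2) Nat.prime_three hc (by norm_num)
    have h7 := cent_pCore_le (X := X) Nat.prime_three fun l hl h => (h1 l hl h).resolve_right fun e => h5 (e ▸ h)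
    obtain ⟨g, hg⟩ := InvChar.exists_quot_pCore_hom_GL (n := 2) h7
      ((Nat.le_of_dvd Nat.card_pos (index_dvd_card _)).trans (Nat.le_of_dvd (by norm_num) h6))
    exact kb_nine _ h6 h7 (kb_GL_two_three.of_inj g hg) fun h => absurd (h.trans hc) (by norm_num)

theorem card_le_of_seven (hW : Nat.card W = 64) (hc : Nat.card X ∣ 1451520)
    (h1 : ∀ l, l.Prime → l ∣ Nat.card (fittingSubgroup X) → l = 3 ∨ l = 7) (h7 : pCore 7 X ≠ ⊥) :
    Nat.card X ≤ 2268 := by
  have p7 : Nat.Prime 7 := by norm_num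
  have : Nontrivial W := Finite.one_lt_card_iff_nontrivial.1 (by omega)
  have := Core.isNilpotent_fittingSubgroup X
  have := Core.fittingSubgroup_normal X
  have hP : Nat.card (pCore 7 X) = 7 := ((Nat.dvd_prime p7).1 (card_pCore_dvd (k := 1) p7 hc (by norm_num))).resolve_left
    fun e => h7 (card_eq_one.1 e)
  have h2 : ∀ t ∈ fittingSubgroup X, (orderOf t).Prime → ∀ w : W, t • w = w → w = 0 := fun t ht hp w hw => by
    rcases h1 _ hp ((fittingSubgroup X).orderOf_dvd_natCard ht) with e | e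
    · have h3 : zpowers t ≤ centralizer (pCore 7 X : Set X) := Core.le_centralizer_of_coprime_of_le_isNilpotent
        (zpowers_le.2 ht) (Core.pCore_le_fittingSubgroup p7) (by rw [Nat.card_zpowers, e, hP]; norm_num)
      have h4 := card_modEq p7 (Core.isPGroup_pCore 7 X) (U := fx W t) (fun a u hu => by
        change t • (a : X) • u = (a : X) • u
        rw [← mul_smul, ← h3 (mem_zpowers t) a a.2, mul_smul, hu]) fun u _ hu => eq_zero_of_fix hI h7 hu
      have h5 := card_fx_modEq (W := W) Nat.prime_three (e ▸ pow_orderOf_eq_one t)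
      obtain ⟨j, hj, h6⟩ := (Nat.dvd_prime_pow Nat.prime_two).1
        ((fx W t).card_addSubgroup_dvd_card.trans (show Nat.card W ∣ 2 ^ 6 by rw [hW]; norm_num))
      rw [h6] at h4
      rw [h6, hW] at h5
      have h8 : j = 0 ∨ j = 6 := by revert h4 h5; interval_cases j <;> decide
      rcases h8 with rfl | rfl
      · exact AddSubgroup.mem_bot.1 (AddSubgroup.card_eq_one.1 h6 ▸ hw)
      · have h9 := AddSubgroup.eq_top_of_card_eq _ (h6.trans hW.symm)
        have h10 : t = 1 := eq_of_smul_eq_smul fun u : W => by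
          rw [one_smul]; exact (h9 ▸ AddSubgroup.mem_top u : u ∈ fx W t)
        rw [h10, orderOf_one] at e
        omega
    · have h3 : zpowers t = pCore 7 X := eq_of_le_of_card_ge (Core.le_pCore_of_le_fittingSubgroup (zpowers_le.2 ht)
        (Core.isElementaryAbelian_isPGroup (Core.isElementaryAbelian_zpowers (e ▸ pow_orderOf_eq_one t))))
        (by rw [hP, Nat.card_zpowers, e])
      exact eq_zero_of_fix hI h7 (h3 ▸ zpowers_le.2 (MulAction.mem_stabilizer_iff.2 hw))
  have h3 : ∀ t ∈ fittingSubgroup X, t ≠ 1 → ∀ w : W, t • w = w → w = 0 := fun t ht h0 w hw => by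
    obtain ⟨l, hl, m, hm⟩ := Nat.exists_prime_and_dvd (orderOf_eq_one_iff.not.2 h0)
    have h4 := orderOf_pos t
    refine h2 (t ^ m) (pow_mem ht m) ?_ w (pow_mem (MulAction.mem_stabilizer_iff.2 hw) m)
    rwa [orderOf_pow_of_dvd (by rintro rfl; omega) (hm ▸ dvd_mul_left m l), hm, Nat.mul_div_cancel _
      (Nat.pos_of_ne_zero (by rintro rfl; omega))]
  have h4 : Nat.card (fittingSubgroup X) ∣ 63 := by
    let S : SubMulAction (fittingSubgroup X) W := ⟨{0}ᶜ, fun g w hw e => hw ((smul_eq_zero_iff_eq g).1 e)⟩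
    have := Fgs.card_dvd_of_free (A := fittingSubgroup X) (X := S) fun a x e => Subtype.ext (by_contra fun h =>
      x.2 (h3 a a.2 h x (congrArg Subtype.val e)))
    rwa [show Nat.card S = ({0}ᶜ : Set W).ncard from rfl, Set.ncard_compl, Set.ncard_singleton, hW] at this
  have : IsZGroup (fittingSubgroup X) := ⟨fun l hl P => by
    have := Fact.mk hl
    obtain ⟨k, hk⟩ := P.2.exists_card_eq
    have h5 : k < 3 := by
      by_contra h5
      have h6 := ((pow_dvd_pow l (not_lt.1 h5)).trans (hk ▸ card_subgroup_dvd_card _)).trans h4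
      have h8 := Nat.le_of_dvd (by norm_num) h6
      have h9 : l < 4 := lt_of_pow_lt_pow_left₀ 3 (by norm_num) (by omega)
      have := hl.two_le
      interval_cases l <;> omega
    refine RealCl.isCyclic_of_fpf ((DistribMulAction.toModuleEnd ℤ W).comp (fittingSubgroup X).subtype)
      (exists_ne 0) _ (fun x hx y hy => ?_) fun x _ h0 => h3 x x.2 fun e => h0 (Subtype.ext e)
    have : IsMulCommutative (P : Subgroup (fittingSubgroup X)) := by
      interval_cases k
      · exact card_eq_one.1 hk ▸ inferInstance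
      · exact (isCyclic_of_prime_card (p := l) (by simpa using hk)).isMulCommutative
      · exact IsPGroup.isMulCommutative_of_card_eq_prime_sq hk
    exact setLike_mul_comm hx hy⟩
  have h5 := (MulAut.conjNormal (H := fittingSubgroup X)).ker.card_mul_index
  have h6 : (MulAut.conjNormal (H := fittingSubgroup X)).ker ≤ fittingSubgroup X := fun g hg =>
    Core.centralizer_fittingSubgroup_le fun n hn => (mul_inv_eq_iff_eq_mul.1
      (congrArg (fun u : fittingSubgroup X => u.1) (DFunLike.congr_fun hg ⟨n, hn⟩) :)).symm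
  have h8 := card_le_card_group (MulAut.conjNormal (H := fittingSubgroup X)).range
  rw [IsCyclic.card_mulAut, ← index_ker] at h8
  refine h5.ge.trans ((Nat.mul_le_mul (card_le_of_le h6) h8).trans ?_)
  have h9 : ∀ n ∈ Nat.divisors 63, n * n.totient ≤ 2268 := by decide
  exact h9 _ (Nat.mem_divisors.2 ⟨h4, by norm_num⟩)

theorem kb_sp62 (hW : Nat.card W = 64) (hc : Nat.card X ∣ 1451520) : Kb (3 ^ 7) X := by
  have p7 : Nat.Prime 7 := by norm_num
  have : Nontrivial W := Finite.one_lt_card_iff_nontrivial.1 (by omega)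
  have h1 : ∀ l, l.Prime → l ∣ Nat.card (fittingSubgroup X) → l = 3 ∨ l = 7 := fun l hl h => by
    have h2 := (card_modEq_of_dvd hI hl h).2.symm.dvd'
    rw [hW] at h2
    exact ((Nat.Prime.dvd_mul hl).1 (show l ∣ 3 ^ 2 * 7 from h2)).imp
      (fun h => (Nat.prime_dvd_prime_iff_eq hl Nat.prime_three).1 (hl.dvd_of_dvd_pow h))
      (Nat.prime_dvd_prime_iff_eq hl p7).1
  refine kb_of_irr hI ?_ (by omega)
  by_cases h7 : 7 ∣ Nat.card (fittingSubgroup X)
  · have := card_le_of_seven hI hW hc h1 (card_modEq_of_dvd hI p7 h7).1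
    omega
  have := Fact.mk Nat.prime_three
  have h2 := card_pCore_dvd (k := 4) Nat.prime_three hc (by norm_num)
  have h3 : (frattini (pCore 3 X)).index ≤ 3 ^ 3 := by
    obtain ⟨j, hj, h4⟩ := (Nat.dvd_prime_pow Nat.prime_three).1 ((index_dvd_card (frattini (pCore 3 X))).trans h2)
    refine h4 ▸ Nat.pow_le_pow_right (by norm_num) (by_contra fun h5 => ?_)
    obtain rfl : j = 4 := by omega
    have h6 := (frattini (pCore 3 X)).index_mul_card
    have h8 := Nat.le_of_dvd (by norm_num) h2
    have h9 : 0 < Nat.card (frattini (pCore 3 X)) := Nat.card_pos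
    have h10 : frattini (pCore 3 X) = ⊥ := card_eq_one.1 (by nlinarith)
    have h11 := Core.commutator_le_frattini_of_isPGroup (Core.isPGroup_pCore 3 X)
    have h12 : Nat.card (pCore 3 X) = 81 := by nlinarith
    have h13 : ∀ x y : pCore 3 X, x * y = y * x := fun x y => commutatorElement_eq_one_iff_mul_comm.1
      (mem_bot.1 (h10 ▸ h11 (commutator_mem_commutator (mem_top x) (mem_top y))))
    obtain ⟨v, hv⟩ := exists_regular (W := W) (pCore 3 X)
      (fun x hx y hy => congrArg Subtype.val (h13 ⟨x, hx⟩ ⟨y, hy⟩)) fun w hw =>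
      AddMonoid.addOrderOf_eq_one_iff.1 (Nat.eq_one_of_dvd_coprimes (by norm_num : Nat.Coprime 81 64)
        (h12 ▸ addOrderOf_dvd_of_nsmul_eq_zero hw) (hW ▸ addOrderOf_dvd_natCard w))
    have := card_le_of_regular hv
    omega
  obtain ⟨g, hg⟩ := InvChar.exists_quot_pCore_hom_GL (cent_pCore_le (X := X) Nat.prime_three fun l hl h =>
    (h1 l hl h).resolve_right fun e => h7 (e ▸ h)) h3
  have h4 := card_dvd_of_injective g hg
  rw [Matrix.card_GL_field] at h4
  have h5 := Nat.dvd_gcd hc (card_eq_card_quotient_mul_card_subgroup (pCore 3 X) ▸ Nat.mul_dvd_mul h4 h2)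
  have h6 := Nat.le_of_dvd (by simp [Fin.prod_univ_three]) h5
  simp [Fin.prod_univ_three] at h6
  omega

end CfsgLib.KFit
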