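import Mathlib
import Cfsg.Agent.Lib.KFit.Small
import Cfsg.Agent.Lib.Base.Main
import Cfsg.Agent.Lib.Forms.Normal
import Cfsg.Agent.S0247

/-!
# Solvable groups preserving an alternating form which is non-degenerate on all invariant subgroups
-/

set_option autoImplicit false

namespace CfsgLib.KFit

open Cfsg Subgroup CfsgLib.Base

universe u

variable {K : Type*} [Field K]

theorem card_le_of_pairing {A B : Type*} [AddCommGroup A] [AddCommGroup B] [Finite B] (β : A →+ B →+ Additive Kˣ)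
    (h : ∀ a, (∀ b, β a b = 0) → a = 0) : Nat.card A ≤ Nat.card B := by
  let χ : A → Multiplicative B →* K := fun a => (Units.coeHom K).comp (AddMonoidHom.toMultiplicativeLeft (β a))
  have h1 : Function.Injective χ := fun a a' e => sub_eq_zero.1 (h _ fun b => by
    rw [map_sub, AddMonoidHom.sub_apply, sub_eq_zero]
    exact Units.ext (DFunLike.congr_fun e (Multiplicative.ofAdd b)))
  have h2 := (linearIndependent_monoidHom (Multiplicative B) K).comp χ h1
  have := Fintype.ofFinite B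
  have := h2.finite
  have := Fintype.ofFinite A
  simpa using h2.fintype_card_le_finrank

theorem six_le {e : ℕ} (he : 16 ≤ e) : 3 * e ^ 6 ≤ 4 * 3 ^ (e - 1) := by
  induction e, he using Nat.le_induction with
  | base => norm_num
  | succ e he ih =>
    obtain ⟨q, rfl⟩ : ∃ q, e = q + 1 := ⟨e - 1, by omega⟩
    rw [Nat.add_sub_cancel] at *
    have h1 : (16 * (q + 1 + 1)) ^ 6 ≤ (17 * (q + 1)) ^ 6 := Nat.pow_le_pow_left (by omega) 6
    rw [mul_pow, mul_pow] at h1
    rw [pow_succ 3]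
    omega

variable {W : Type*} [AddCommGroup W]

/-- an invariant alternating form, non-degenerate on all invariant subgroups -/
structure Form (X : Type*) [Group X] [DistribMulAction X W] (β : W →+ W →+ Additive Kˣ) : Prop where
  alt : ∀ a, β a a = 0
  inv : ∀ (g : X) a b, β (g • a) (g • b) = β a b
  nd : ∀ U : AddSubgroup W, MInv X U → ∀ u ∈ U, (∀ w ∈ U, β u w = 0) → u = 0

variable {X : Type*} [Group X] [DistribMulAction X W] {β : W →+ W →+ Additive Kˣ}

theorem Form.res (h : Form X β) {U : AddSubgroup W} (hU : MInv X U) :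
    letI := resAct hU
    Form (rng X U) ((β.comp U.subtype).flip.comp U.subtype).flip := by
  let := resAct hU
  refine ⟨fun a => h.alt a, fun g a b => ?_, fun A hA u hu h1 => Subtype.ext (h.nd (A.map U.subtype) ?_ u
    ⟨u, hu, rfl⟩ ?_)⟩
  · obtain ⟨x, hx⟩ := exists_rng' g
    rw [hx, hx]
    exact h.inv x a b
  · rintro g _ ⟨a, ha, rfl⟩
    exact ⟨_, hA.of_le exists_rng g a ha, rfl⟩
  · rintro _ ⟨a, ha, rfl⟩
    exact h1 a ha

theorem exists_sp_of_module [Finite W] [FaithfulSMul X W] {p : ℕ} [Fact p.Prime] [Module (ZMod p) W]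
    (B₀ : W → W → ZMod p) (e1 : ∀ x y z, B₀ (x + y) z = B₀ x z + B₀ y z)
    (e2 : ∀ x y z, B₀ x (y + z) = B₀ x y + B₀ x z) (e3 : ∀ x, B₀ x x = 0) (e4 : ∀ x, (∀ y, B₀ x y = 0) → x = 0)
    (e5 : ∀ (g : X) x y, B₀ (g • x) (g • y) = B₀ x y) :
    ∃ (m : ℕ) (f : X →* Matrix.symplecticGroup (Fin m) (ZMod p)), Function.Injective f ∧
      Nat.card W = (p ^ m) ^ 2 := by
  let B : LinearMap.BilinForm (ZMod p) W := LinearMap.mk₂ (ZMod p) B₀ e1
    (fun c x y => ZMod.map_smul (AddMonoidHom.mk' (B₀ · y) fun _ _ => e1 _ _ _) c x) e2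
    fun c x y => ZMod.map_smul (AddMonoidHom.mk' (B₀ x) (e2 x)) c y
  have hA : B.IsAlt := e3
  obtain ⟨m, c, c1, c2, c3⟩ := Forms.exists_symplectic_basis B hA (hA.isRefl.nondegenerate_iff_separatingLeft.2 e4)
  have hJ : LinearMap.BilinForm.toMatrix c B = Matrix.J (Fin m) (ZMod p) := by
    ext (i | i) (j | j) <;> simp [Matrix.J, c1, c2, c3, Matrix.one_apply]
    rw [← hA.neg_eq, c3]; simp [eq_comm]
  let ρ : X →* Module.End (ZMod p) W :=
    { toFun := fun g => (DistribSMul.toAddMonoidHom W g).toZModLinearMap p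
      map_one' := LinearMap.ext fun w => one_smul X w
      map_mul' := fun g g' => LinearMap.ext fun w => mul_smul g g' w }
  refine ⟨m, ((LinearMap.toMatrixAlgEquiv c).toMonoidHom.comp ρ).codRestrict _ fun g => ?_, fun g g' e => ?_, ?_⟩
  · have h5 := LinearMap.BilinForm.toMatrix_comp c c B (ρ g) (ρ g)
    rw [show B.comp (ρ g) (ρ g) = B from LinearMap.BilinForm.ext (e5 g), hJ] at h5
    exact SymplecticGroup.mem_iff'.2 h5.symm
  · exact eq_of_smul_eq_smul fun w : W =>
      DFunLike.congr_fun ((LinearMap.toMatrixAlgEquiv c).injective (congrArg Subtype.val e)) w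
  · rw [Module.natCard_eq_pow_finrank (K := ZMod p), Module.finrank_eq_card_basis c, ← pow_mul]
    simp [mul_two]

theorem Form.exists_sp [Finite W] [Nontrivial W] [FaithfulSMul X W] (h : Form X β) (hI : Irr X W) :
    ∃ (p : ℕ) (_ : Fact p.Prime) (m : ℕ) (f : X →* Matrix.symplecticGroup (Fin m) (ZMod p)), Function.Injective f ∧
      Nat.card W = (p ^ m) ^ 2 := by
  obtain ⟨p, hp, h1⟩ := Nat.exists_prime_and_dvd (Finite.one_lt_card (α := W)).ne'
  have := Fact.mk hp
  obtain ⟨a, ha⟩ := exists_prime_addOrderOf_dvd_card' p h1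
  have ha0 : a ≠ 0 := fun e => hp.one_lt.ne' (by rw [← ha, e, addOrderOf_zero])
  have h2 : ∀ w : W, p • w = 0 := fun w => by
    rcases hI (nsmulAddMonoidHom (α := W) p).ker (fun g u hu => by
      rw [AddMonoidHom.mem_ker, nsmulAddMonoidHom_apply] at hu ⊢
      rw [smul_comm, hu, smul_zero]) with e | e
    · exact absurd (AddSubgroup.mem_bot.1 (e ▸ (ha ▸ addOrderOf_nsmul_eq_zero a : p • a = 0))) ha0
    · exact (e ▸ AddSubgroup.mem_top w : w ∈ (nsmulAddMonoidHom (α := W) p).ker)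
  obtain ⟨b, hb⟩ := not_forall.1 fun e => ha0 (h.nd ⊤ (fun _ _ _ => trivial) a trivial fun w _ => e w)
  have h3 : ∀ x y, p • β x y = 0 := fun x y => by rw [← map_nsmul, h2, map_zero]
  have hζ : IsPrimitiveRoot ((β a b).toMul : K) p := isPrimitiveRoot_of_prime hp
    (congrArg (fun u : Additive Kˣ => (u.toMul : K)) (h3 a b)) fun e => hb (Units.ext e)
  let L : ZMod p →+ Additive Kˣ := ZMod.lift p ⟨zmultiplesHom _ (β a b), by simpa using h3 a b⟩
  have hL : ∀ n : ℕ, L n = n • β a b := fun n => by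
    rw [← Int.cast_natCast, ZMod.lift_coe]; simp
  have hLi : Function.Injective L := (injective_iff_map_eq_zero _).2 fun c e => by
    obtain ⟨n, rfl⟩ := ZMod.natCast_zmod_surjective c
    rw [hL] at e
    exact (ZMod.natCast_eq_zero_iff n p).2 (hζ.dvd_of_pow_eq_one n (congrArg (fun u : Additive Kˣ => (u.toMul : K)) e))
  have h4 : ∀ x y, ∃ c, L c = β x y := fun x y => by
    obtain ⟨i, -, e⟩ := hζ.eq_pow_of_pow_eq_one (ξ := ((β x y).toMul : K))
      (congrArg (fun u : Additive Kˣ => (u.toMul : K)) (h3 x y))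
    exact ⟨i, (hL i).trans (Units.ext e)⟩
  choose B₀ hB₀ using h4
  let := AddCommGroup.zmodModule h2
  have e1 : ∀ x y z, B₀ (x + y) z = B₀ x z + B₀ y z := fun x y z => hLi (by simp [hB₀])
  have e2 : ∀ x y z, B₀ x (y + z) = B₀ x y + B₀ x z := fun x y z => hLi (by simp [hB₀])
  exact ⟨p, ⟨hp⟩, exists_sp_of_module B₀ e1 e2 (fun x => hLi (by rw [map_zero]; exact (hB₀ x x).trans (h.alt x)))
    (fun x hx => h.nd ⊤ (fun _ _ _ => trivial) x trivial fun w _ => by rw [← hB₀, hx w, map_zero])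
    fun g x y => hLi ((hB₀ _ _).trans ((h.inv g x y).trans (hB₀ x y).symm))⟩

theorem Form.irr [Finite X] [Group.IsSolvable X] [Finite W] [Nontrivial W] [FaithfulSMul X W] (h : Form X β)
    (hI : Irr X W) : ∃ e, Nat.card W = e ^ 2 ∧ Kb (3 ^ (e - 1)) X := by
  obtain ⟨p, hp, m, f, hf, h1⟩ := h.exists_sp hI
  refine ⟨p ^ m, h1, ?_⟩
  have h2 : 16 ≤ p ^ m → Kb (3 ^ (p ^ m - 1)) X := fun h2 => by
    obtain ⟨v, hv⟩ := hI.cr.hasBase_three
    have h3 := Nat.card_le_card_of_injective (fun (g : X) i => g • v i) fun g g' e => eq_of_smul_eq_smul fun w : W => by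
      rw [← inv_smul_eq_iff, ← mul_smul]
      exact hv _ (fun i => by rw [mul_smul, inv_smul_eq_iff]; exact congrFun e i) w
    rw [Nat.card_fun, Nat.card_fin, h1, ← pow_mul] at h3
    have h4 := six_le h2
    exact kb_of_irr hI ((Nat.mul_le_mul_left 3 h3).trans h4) (h1 ▸ sq_le_three_pow (by omega))
  have h3 := Finite.one_lt_card (α := W)
  have h4 := hp.out.two_le
  obtain rfl | rfl | hm : m = 0 ∨ m = 1 ∨ 2 ≤ m := by omega
  · simp [h1] at h3
  · have := kb_two (K := ZMod p) (V := Fin 1 ⊕ Fin 1 → ZMod p)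
      ((Matrix.toLinAlgEquiv' (R := ZMod p) (n := Fin 1 ⊕ Fin 1)).toMonoidHom.comp
      ((Matrix.symplecticGroup (Fin 1) (ZMod p)).subtype.comp f))
      (Matrix.toLinAlgEquiv'.injective.comp (Subtype.val_injective.comp hf)) (by simp)
    rw [Nat.card_zmod] at this
    rw [pow_one]
    exact this.mono (two_le_three_pow hp.out)
  by_cases h5 : 4 ≤ m
  · exact h2 ((Nat.pow_le_pow_left h4 4).trans (Nat.pow_le_pow_right (by omega) h5))
  by_cases h6 : 4 ≤ p
  · exact h2 ((Nat.pow_le_pow_left h6 2).trans (Nat.pow_le_pow_right (by omega) hm))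
  interval_cases m <;> interval_cases p
  · obtain ⟨e⟩ := Cfsg.Agent.S0247.result (F := ZMod 2) (ZMod.card 2)
    exact kb_sp42 hI h1 (e.toMonoidHom.comp f) (e.injective.comp hf)
  · exact kb_sp43 f hf
  · refine kb_sp62 hI h1 ((card_dvd_of_injective f hf).trans ?_)
    rw [Symp.card_sp]; simp [Finset.prod_range_succ]
  · exact h2 (by norm_num)

theorem Form.kb_aux (n : ℕ) : ∀ (X W : Type u) [Group X] [Finite X] [Group.IsSolvable X] [AddCommGroup W] [Finite W]
    [DistribMulAction X W] [FaithfulSMul X W] (β : W →+ W →+ Additive Kˣ), Form X β → Nat.card W = n →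
      ∃ e, n = e ^ 2 ∧ Kb (3 ^ (e - 1)) X := by
  induction n using Nat.strong_induction_on with
  | _ n ih =>
  intro X W _ _ _ _ _ _ _ β h hn
  subst hn
  rcases subsingleton_or_nontrivial W with _ | _
  · have : Subsingleton X := ⟨fun _ _ => eq_of_smul_eq_smul fun _ : W => Subsingleton.elim _ _⟩
    exact ⟨1, Nat.card_unique, Kb.of_card Nat.card_unique.le⟩
  by_cases hI : Irr X W
  · exact h.irr hI
  obtain ⟨U, hU, h1⟩ := not_forall₂.1 hI
  obtain ⟨h1, h2⟩ := not_or.1 h1
  let V := (β.comp U.subtype).flip.ker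
  have mV : ∀ w, w ∈ V ↔ ∀ u ∈ U, β u w = 0 := fun w =>
    ⟨fun e u hu => DFunLike.congr_fun e ⟨u, hu⟩, fun e => AddMonoidHom.ext fun u => e u u.2⟩
  have hV : MInv X V := fun g w hw => (mV _).2 fun u hu => by
    rw [← smul_inv_smul g u, h.inv]
    exact (mV w).1 hw _ (hU _ _ hu)
  have h3 : ∀ u ∈ U, u ∈ V → u = 0 := fun u hu hv => h.nd U hU u hu fun w hw => by
    have := h.alt (u + w)
    simpa [h.alt, (mV u).1 hv w hw] using this
  have h4 : Nat.card (W ⧸ V) ≤ Nat.card U :=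
    card_le_of_pairing (K := K) (QuotientAddGroup.lift V (β.comp U.subtype).flip le_rfl) fun a e => by
      obtain ⟨w, rfl⟩ := QuotientAddGroup.mk_surjective a
      exact (QuotientAddGroup.eq_zero_iff w).2 ((mV w).2 fun u hu => e ⟨u, hu⟩)
  let s : U × V →+ W := U.subtype.coprod V.subtype
  have h5 : Function.Injective s := (injective_iff_map_eq_zero _).2 fun x e => by
    have e' : (x.1 : W) = -x.2 := eq_neg_of_add_eq_zero_left e
    have := h3 _ x.1.2 (e' ▸ neg_mem x.2.2)
    exact Prod.ext (Subtype.ext this) (Subtype.ext (neg_eq_zero.1 (e'.symm.trans this)))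
  have h6 : Nat.card W = Nat.card U * Nat.card V := le_antisymm
    ((AddSubgroup.card_eq_card_quotient_mul_card_addSubgroup V).trans_le (Nat.mul_le_mul_right _ h4))
    (Nat.card_prod U V ▸ Nat.card_le_card_of_injective s h5)
  have h7 := ((Nat.bijective_iff_injective_and_card s).2 ⟨h5, (Nat.card_prod U V).trans h6.symm⟩).2
  have h8 : 1 < Nat.card U := (AddSubgroup.one_lt_card_iff_ne_bot U).2 h1
  have h9 : Nat.card U < Nat.card W := lt_of_le_of_ne (AddSubgroup.card_le_card_addGroup U)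
    fun e => h2 (AddSubgroup.eq_top_of_card_eq U e)
  have h10 : 0 < Nat.card V := Nat.card_pos
  let := resAct hU
  let := resAct hV
  obtain ⟨a, ha, ka⟩ := ih _ h9 (rng X U) U _ (h.res hU) rfl
  obtain ⟨b, hb, kb⟩ := ih _ (show Nat.card V < Nat.card W by nlinarith) (rng X V) V _ (h.res hV) rfl
  refine ⟨a * b, by rw [h6, ha, hb, mul_pow], (Kb.prod (MonoidHom.rangeRestrict _) (MonoidHom.rangeRestrict _)
    (fun x e1 e2 => eq_of_smul_eq_smul fun w : W => ?_) ka kb).mono ?_⟩
  · obtain ⟨⟨u, v⟩, rfl⟩ := h7 w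
    have e3 : x • (u : W) = u := congrArg (fun r : rng X U => ((r.1 u : U) : W)) e1
    have e4 : x • (v : W) = v := congrArg (fun r : rng X V => ((r.1 v : V) : W)) e2
    change x • ((u : W) + v) = (1 : X) • ((u : W) + v)
    rw [smul_add, e3, e4, one_smul]
  · rw [← pow_add]
    refine Nat.pow_le_pow_right (by norm_num) ?_
    obtain ⟨a, rfl⟩ : ∃ c, a = c + 1 := ⟨a - 1, by rcases a with _ | a <;> simp at ha ⊢; omega⟩
    obtain ⟨b, rfl⟩ : ∃ c, b = c + 1 := ⟨b - 1, by rcases b with _ | b <;> simp at hb ⊢; omega⟩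
    refine Nat.le_sub_one_of_lt ?_
    simp only [Nat.add_sub_cancel]
    nlinarith [Nat.zero_le (a * b)]

theorem Form.kb {X W : Type*} [Group X] [Finite X] [Group.IsSolvable X] [AddCommGroup W] [Finite W]
    [DistribMulAction X W] {β : W →+ W →+ Additive Kˣ} (h : Form X β) {r : ℕ} (hr : Nat.card W ≤ r ^ 2) :
    Kb (3 ^ (r - 1)) (rng X W) := by
  obtain ⟨e, h1, h2⟩ := Form.kb_aux _ (rng X W) W β ⟨h.alt, fun g a b => by
    obtain ⟨x, hx⟩ := exists_rng' g
    rw [hx, hx, h.inv], fun U hU => h.nd U (hU.of_le exists_rng)⟩ rfl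
  exact h2.mono (Nat.pow_le_pow_right (by norm_num)
    (Nat.sub_le_sub_right (le_of_pow_le_pow_left₀ two_ne_zero (Nat.zero_le _) (h1 ▸ hr)) 1))

end CfsgLib.KFit
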