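import Mathlib
import Cfsg.Agent.Lib.KFit.Sym

/-!
# Linear groups all of whose abelian normal subgroups are scalar
-/

set_option autoImplicit false

namespace CfsgLib.KFit

open Cfsg Subgroup CfsgLib.Base
open scoped commutatorElement

variable {K G V : Type*} [Field K] [Group G] [AddCommGroup V] [Module K V]

/-- weight spaces -/
def wt (ρ : Representation K G V) (χ : G →* K) : Submodule K V where
  carrier := {v | ∀ g, ρ g v = χ g • v}
  zero_mem' g := by simp
  add_mem' {a b} ha hb g := by rw [map_add, ha, hb, smul_add]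
  smul_mem' c v hv g := by rw [map_smul, hv, smul_comm]

theorem wt_indep (ρ : Representation K G V) : iSupIndep (wt ρ) := by
  refine (iSupIndep_iff_finsetSum_eq_zero_imp_eq_zero _).2 fun s v hv h0 i hi =>
    (Module.forall_dual_apply_eq_zero_iff K _).1 fun l => ?_
  refine linearIndependent_iff'.1 (linearIndependent_monoidHom G K) s (fun χ => l (v χ)) (funext fun g => ?_) i hi
  have := congrArg (fun w => l (ρ g w)) h0
  simp only [map_sum, map_zero] at this
  rw [Finset.sum_apply, Pi.zero_apply, ← this]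
  exact Finset.sum_congr rfl fun χ hχ => by rw [hv χ hχ g, map_smul, Pi.smul_apply, smul_eq_mul, smul_eq_mul, mul_comm]

theorem commutator_fit_le [Finite G] (hmax : ∀ B : Subgroup G, B.Normal → IsMulCommutative B → B ≤ center G) :
    ⁅fittingSubgroup G, fittingSubgroup G⁆ ≤ center G := by
  have := Core.fittingSubgroup_normal G
  have := Core.isNilpotent_fittingSubgroup G
  by_contra h
  obtain ⟨N, ⟨h1, h2, h3⟩, hmin⟩ := exists_minimal_of_wellFoundedLT
    (fun N : Subgroup G => N.Normal ∧ N ≤ ⁅fittingSubgroup G, fittingSubgroup G⁆ ∧ ¬ N ≤ center G)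
    ⟨_, inferInstance, le_rfl, h⟩
  have hNF : N ≤ fittingSubgroup G := h2.trans (commutator_le_left _ _)
  have h4 := Core.commutator_lt_of_isNilpotent hNF le_normalizer_of_normal (fun h => h3 (h ▸ bot_le))
  have h5 : ⁅N, fittingSubgroup G⁆ ≤ center G := by
    by_contra h5
    exact h4.not_ge (hmin ⟨inferInstance, h4.le.trans h2, h5⟩ h4.le)
  have h6 : ⁅⁅N, fittingSubgroup G⁆, fittingSubgroup G⁆ = ⊥ := commutator_eq_bot_iff_le_centralizer.2
    (h5.trans (center_le_centralizer _))
  have h7 : ⁅⁅fittingSubgroup G, fittingSubgroup G⁆, N⁆ = ⊥ := commutator_commutator_eq_bot_of_rotate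
    (by rwa [commutator_comm (fittingSubgroup G) N]) h6
  exact h3 (hmax N h1 (le_centralizer_iff_isMulCommutative.1 (h2.trans (commutator_eq_bot_iff_le_centralizer.1 h7))))

theorem exists_pairing {F : Subgroup G} (hF : ⁅F, F⁆ ≤ center G) (ι : center G →* Kˣ) :
    ∃ b : F →* F →* Kˣ, ∀ f x : F, ∀ z : center G, z.1 = ⁅x.1, f.1⁆ → b f x = ι z := by
  have hc : ∀ x f : F, ⁅x.1, f.1⁆ ∈ center G := fun x f => hF (commutator_mem_commutator x.2 f.2)
  refine ⟨MonoidHom.mk' (fun f => MonoidHom.mk' (fun x => ι ⟨_, hc x f⟩) fun x y => ?_) fun f g => ?_,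
    fun f x z e => congrArg ι (Subtype.ext e.symm)⟩
  · rw [mul_comm, ← map_mul]
    refine congrArg ι (Subtype.ext ?_)
    change ⁅x.1 * y.1, f.1⁆ = ⁅y.1, f.1⁆ * ⁅x.1, f.1⁆
    rw [← mul_inv_cancel_right ⁅y.1, f.1⁆ x.1, ← mem_center_iff.1 (hc y f)]
    group
  · ext1 x
    rw [MonoidHom.mul_apply, MonoidHom.mk'_apply, MonoidHom.mk'_apply, MonoidHom.mk'_apply, ← map_mul]
    refine congrArg ι (Subtype.ext ?_)
    change ⁅x.1, f.1 * g.1⁆ = ⁅x.1, f.1⁆ * ⁅x.1, g.1⁆
    rw [← mul_inv_cancel_right ⁅x.1, g.1⁆ f.1, ← mem_center_iff.1 (hc x g)]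
    group

theorem kf_of_pairing [Finite G] [Group.IsSolvable G]
    (hmax : ∀ B : Subgroup G, B.Normal → IsMulCommutative B → B ≤ center G) (ι : center G →* Kˣ)
    (hι : Function.Injective ι) (b : fittingSubgroup G →* fittingSubgroup G →* Kˣ)
    (hb : ∀ f x : fittingSubgroup G, ∀ z : center G, z.1 = ⁅x.1, f.1⁆ → b f x = ι z) {r : ℕ}
    (hr : Nat.card b.range ≤ r ^ 2) : KF (3 ^ (r - 1)) G := by
  have := Core.fittingSubgroup_normal G
  have hc : ∀ x f : fittingSubgroup G, ⁅x.1, f.1⁆ ∈ center G := fun x f =>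
    commutator_fit_le hmax (commutator_mem_commutator x.2 f.2)
  have h1 : ∀ f x, b f x = 1 ↔ x.1 * f.1 = f.1 * x.1 := fun f x => by
    rw [hb f x ⟨_, hc x f⟩ rfl, map_eq_one_iff ι hι, Subtype.ext_iff]
    exact commutatorElement_eq_one_iff_mul_comm
  have h2 : ∀ f x, b f x = (b x f)⁻¹ := fun f x => by
    rw [hb x f ⟨_, hc f x⟩ rfl, ← map_inv]
    exact hb f x _ (commutatorElement_inv _ _)
  let cj : G →* MulAut (fittingSubgroup G) := MulAut.conjNormal
  have h3 : ∀ g f x, b (cj g f) (cj g x) = b f x := fun g f x => by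
    rw [hb f x ⟨_, hc x f⟩ rfl]
    refine hb _ _ _ ?_
    change ⁅x.1, f.1⁆ = ⁅g * x.1 * g⁻¹, g * f.1 * g⁻¹⁆
    rw [← conjugate_commutatorElement, mem_center_iff.1 (hc x f), mul_inv_cancel_right]
  have h4 : ∀ g f, (b f).comp (cj g⁻¹).toMonoidHom = b (cj g f) := fun g f => MonoidHom.ext fun x => by
    rw [← h3 g⁻¹ (cj g f), map_inv, MulAut.inv_apply_self]; rfl
  have hZ : centralizer (fittingSubgroup G : Set G) ≤ center G := fun g hg =>
    hmax _ inferInstance (Core.isMulCommutative_inf_centralizer _) ⟨Core.centralizer_fittingSubgroup_le hg, hg⟩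
  have : Finite b.range := Finite.of_surjective _ b.rangeRestrict_surjective
  let π : fittingSubgroup G → Additive b.range := fun f => Additive.ofMul (b.rangeRestrict f)
  have hπ : Function.Surjective π := b.rangeRestrict_surjective
  let act : DistribMulAction G (Additive b.range) :=
    { smul := fun g w => Additive.ofMul ⟨w.toMul.1.comp (cj g⁻¹).toMonoidHom, by
        obtain ⟨f, rfl⟩ := hπ w
        exact ⟨_, (h4 g f).symm⟩⟩
      one_smul := fun w => Subtype.ext (MonoidHom.ext fun x => congrArg w.toMul.1 (by simp))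
      mul_smul := fun g h w => Subtype.ext (MonoidHom.ext fun x => congrArg w.toMul.1 (by simp))
      smul_zero := fun g => rfl
      smul_add := fun g a b => rfl }
  have h5 : ∀ (g : G) f, g • π f = π (cj g f) := fun g f => Subtype.ext (h4 g f)
  have h6 : ∀ f x, b f (Function.surjInv hπ (π x)) = b f x := fun f x => by
    rw [h2, h2 f x, show b (Function.surjInv hπ (π x)) = b x from
      congrArg (fun w : Additive b.range => w.toMul.1) (Function.surjInv_eq hπ (π x))]
  let β : Additive b.range →+ Additive b.range →+ Additive Kˣ := AddMonoidHom.mk' (fun w => AddMonoidHom.mk'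
    (fun w' => Additive.ofMul (w.toMul.1 (Function.surjInv hπ w'))) fun x y => by
      obtain ⟨f, rfl⟩ := hπ w
      obtain ⟨x, rfl⟩ := hπ x
      obtain ⟨y, rfl⟩ := hπ y
      rw [show π x + π y = π (x * y) from congrArg Additive.ofMul (map_mul b.rangeRestrict x y).symm]
      exact (h6 f _).trans ((map_mul _ x y).trans (congrArg₂ _ (h6 f x).symm (h6 f y).symm))) fun _ _ => rfl
  have hβ : ∀ f x, β (π f) (π x) = Additive.ofMul (b f x) := h6
  have hF : Form G β := by
    refine ⟨fun w => ?_, fun g w w' => ?_, fun U hU u hu h7 => ?_⟩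
    · obtain ⟨f, rfl⟩ := hπ w
      exact (hβ f f).trans ((h1 f f).2 rfl)
    · obtain ⟨f, rfl⟩ := hπ w
      obtain ⟨x, rfl⟩ := hπ w'
      rw [h5, h5, hβ, hβ, h3]
    · obtain ⟨f, rfl⟩ := hπ u
      let U₁ := ((AddSubgroup.toSubgroup' U).comap b.rangeRestrict).map (fittingSubgroup G).subtype
      have : U₁.Normal := ⟨by
        rintro _ ⟨x, hx, rfl⟩ g
        exact ⟨cj g x, (h5 g x ▸ hU g _ hx : π (cj g x) ∈ U), rfl⟩⟩
      have h8 : f.1 ∈ center G := hmax _ inferInstance (Core.isMulCommutative_inf_centralizer U₁) ⟨⟨f, hu, rfl⟩, by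
        rintro _ ⟨x, hx, rfl⟩
        exact (h1 f x).1 ((hβ f x).symm.trans (h7 _ hx))⟩
      exact Subtype.ext (MonoidHom.ext fun x => (h1 f x).2 (mem_center_iff.1 h8 x))
  refine KF.of_hom (MonoidHom.rangeRestrict _) ?_ (hF.kb hr)
  rw [MonoidHom.ker_rangeRestrict]
  set C := (DistribMulAction.toModuleAut ℤ (Additive b.range) : G →* _).ker with hC
  have h7 : ⁅C, fittingSubgroup G⁆ ≤ center G := commutator_le.2 fun g hg x hx => hZ fun f hf => by
    have h8 : ∀ w : Additive b.range, g⁻¹ • w = w := fun w => DFunLike.congr_fun (MonoidHom.mem_ker.1 (inv_mem hg)) w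
    have h9 : b ⟨f, hf⟩ (cj g⁻¹⁻¹ ⟨x, hx⟩) = b ⟨f, hf⟩ ⟨x, hx⟩ :=
      congrArg (fun w : Additive b.range => w.toMul.1 ⟨x, hx⟩) (h8 (π ⟨f, hf⟩))
    rw [inv_inv, ← mul_inv_eq_one, ← map_inv, ← map_mul, h1] at h9
    exact h9.symm
  have h8 : ⁅⁅C, fittingSubgroup G⁆, C⁆ = ⊥ :=
    commutator_eq_bot_iff_le_centralizer.2 (h7.trans (center_le_centralizer _))
  have h9 : ⁅⁅C, C⁆, fittingSubgroup G⁆ = ⊥ := commutator_commutator_eq_bot_of_rotate h8
    (by rwa [commutator_comm (fittingSubgroup G) C])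
  exact Core.isNilpotent_of_commutator_commutator_eq_bot (commutator_eq_bot_iff_le_centralizer.2
    (((commutator_eq_bot_iff_le_centralizer.1 h9).trans hZ).trans (center_le_centralizer _)))

theorem kf_of_scalar [Finite G] [Group.IsSolvable G] [FiniteDimensional K V] [Nontrivial V] (ρ : Representation K G V)
    (hρ : Function.Injective ρ) (h : ∀ B : Subgroup G, B.Normal → IsMulCommutative B → ∀ g ∈ B, ∃ c : K, ρ g = c • 1) :
    KF (3 ^ (Module.finrank K V - 1)) G := by
  have hmax : ∀ B : Subgroup G, B.Normal → IsMulCommutative B → B ≤ center G := fun B h1 h2 g hg => by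
    obtain ⟨c, hc⟩ := h B h1 h2 g hg
    exact mem_center_iff.2 fun x => hρ (by rw [map_mul, map_mul, hc, mul_smul_comm, smul_mul_assoc, mul_one, one_mul])
  choose c hc using fun z : center G => h _ inferInstance inferInstance z z.2
  have hs : Function.Injective fun c : K => c • (1 : Module.End K V) := smul_left_injective K one_ne_zero
  let ι : center G →* K :=
    { toFun := c
      map_one' := hs (by simp [← hc])
      map_mul' := fun x y => hs (by
        simp only [← hc, Subgroup.coe_mul, map_mul]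
        rw [hc, hc, smul_mul_smul_comm, mul_one]) }
  obtain ⟨b, hb⟩ := exists_pairing (commutator_fit_le hmax) ι.toHomUnits
  refine kf_of_pairing hmax ι.toHomUnits (fun x y e => Subtype.ext (hρ ?_)) b hb ?_
  · rw [hc, hc, show c x = c y from congrArg Units.val e]
  let σ := Representation.linHom (ρ.comp (fittingSubgroup G).subtype) (ρ.comp (fittingSubgroup G).subtype)
  have := (wt_indep σ).fintypeNeBotOfFiniteDimensional
  have h1 := (wt_indep σ).subtype_ne_bot_le_finrank
  rw [Module.finrank_linearMap, ← sq, ← Nat.card_eq_fintype_card] at h1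
  refine (Nat.card_le_card_of_injective (fun χ : b.range => (⟨(Units.coeHom K).comp χ.1, ?_⟩ : {χ // wt σ χ ≠ ⊥}))
    fun χ χ' e => ?_).trans h1
  · obtain ⟨_, f, rfl⟩ := χ
    refine (Submodule.ne_bot_iff _).2 ⟨ρ f, fun x => ?_, (Group.isUnit f.1).map ρ |>.ne_zero⟩
    have h2 := commutator_fit_le hmax (commutator_mem_commutator x.2 f.2)
    change ρ x * ρ f * ρ (x⁻¹ : fittingSubgroup G) = (b f x : K) • ρ f
    rw [hb f x ⟨_, h2⟩ rfl, ← map_mul, ← map_mul, show x.1 * f.1 * (x⁻¹ : fittingSubgroup G) = ⁅x.1, f.1⁆ * f by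
      simp [commutatorElement_def], map_mul, hc ⟨_, h2⟩, smul_mul_assoc, one_mul]
    rfl
  · exact Subtype.ext (MonoidHom.ext fun x => Units.ext (DFunLike.congr_fun (congrArg Subtype.val e) x))

end CfsgLib.KFit
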