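import Mathlib
import Cfsg.Agent.Lib.KFit.Cent

/-!
# The class numbers of `G / F(G)` for solvable linear groups
-/

set_option autoImplicit false

namespace CfsgLib.KFit

open Cfsg Subgroup Module

universe u v

variable {K : Type*} [Field K]

section

variable {G V : Type*} [Group G] [AddCommGroup V] [Module K V]

/-- invariant subspaces -/
def InvS (ρ : Representation K G V) (U : Submodule K V) : Prop := ∀ g, U ≤ U.comap (ρ g)

/-- a chain of invariant subspaces -/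
def Ch (ρ : Representation K G V) (k : ℕ) : Prop :=
  ∃ s : ℕ → Submodule K V, (∀ i, InvS ρ (s i)) ∧ ∀ i < k, s i < s (i + 1)

theorem maschke [Finite G] (ρ : Representation K G V) (h : (Nat.card G : K) ≠ 0) {U : Submodule K V}
    (hU : InvS ρ U) : ∃ U', IsCompl U U' ∧ InvS ρ U' := by
  have : NeZero (Nat.card G : K) := ⟨h⟩
  obtain ⟨U', h1⟩ := exists_isCompl (⟨U, fun g _ hv => hU g hv⟩ : Subrepresentation ρ)
  exact ⟨U'.toSubmodule, ⟨disjoint_iff.2 (congrArg Subrepresentation.toSubmodule h1.inf_eq_bot),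
    codisjoint_iff.2 (congrArg Subrepresentation.toSubmodule h1.sup_eq_top)⟩, fun g _ hv => U'.apply_mem_toSubmodule g hv⟩

theorem ch_one [Nontrivial V] (ρ : Representation K G V) : Ch ρ 1 :=
  ⟨fun i => if i = 0 then ⊥ else ⊤, fun i g => by by_cases h : i = 0 <;> simp [h], fun i hi => by
    obtain rfl : i = 0 := by omega
    simp⟩

theorem exists_wt [IsAlgClosed K] [FiniteDimensional K V] (ρ : Representation K G V) (hc : ∀ x y : G, x * y = y * x)
    {M : Submodule K V} (hM : InvS ρ M) (h0 : M ≠ ⊥) : ∃ χ, wt ρ χ ⊓ M ≠ ⊥ := by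
  obtain ⟨N, ⟨h1, h2, h3⟩, hmin⟩ := exists_minimal_of_wellFoundedLT
    (fun N : Submodule K V => InvS ρ N ∧ N ≠ ⊥ ∧ N ≤ M) ⟨M, hM, h0, le_rfl⟩
  have : Nontrivial N := Submodule.nontrivial_iff_ne_bot.2 h2
  have h4 : ∀ g, ∃ c : K, ∀ v ∈ N, ρ g v = c • v := fun g => by
    obtain ⟨c, hc'⟩ := End.exists_eigenvalue ((ρ g).restrict (h1 g))
    obtain ⟨v, h5, h6⟩ := hc'.exists_hasEigenvector
    refine ⟨c, fun w hw => End.mem_eigenspace_iff.1 (hmin (y := N ⊓ End.eigenspace (ρ g) c) ⟨fun x u hu =>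
      ⟨h1 x hu.1, End.mem_eigenspace_iff.2 ?_⟩, (Submodule.ne_bot_iff _).2 ⟨v, ⟨v.2, End.mem_eigenspace_iff.2
        (congrArg Subtype.val (End.mem_eigenspace_iff.1 h5))⟩, fun e => h6 (Subtype.ext e)⟩, inf_le_left.trans h3⟩
      inf_le_left hw).2⟩
    rw [← End.mul_apply, ← map_mul, hc, map_mul, End.mul_apply, End.mem_eigenspace_iff.1 hu.2, map_smul]
  choose c hc' using h4
  obtain ⟨v, hv, h5⟩ := (Submodule.ne_bot_iff _).1 h2
  refine ⟨⟨⟨c, smul_left_injective K h5 ?_⟩, fun x y => smul_left_injective K h5 ?_⟩,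
    (Submodule.ne_bot_iff _).2 ⟨v, ⟨fun g => hc' g v hv, h3 hv⟩, h5⟩⟩
  · simp [← hc' 1 v hv]
  · simp only [← hc' _ v hv, map_mul, End.mul_apply]
    rw [hc' y v hv, map_smul, hc' x v hv, smul_smul, mul_comm]

end

variable (K) in
/-- the bound in dimension `r` for chains of length `k` -/
def Bd (r k : ℕ) : Prop :=
  ∀ (G : Type u) (V : Type v) [Group G] [Finite G] [Group.IsSolvable G] [AddCommGroup V] [Module K V]
    [FiniteDimensional K V] (ρ : Representation K G V), Function.Injective ρ → (Nat.card G : K) ≠ 0 →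
      finrank K V = r → Ch ρ k → ∃ c, 3 ^ k * c ≤ 3 ^ r ∧ KF c G

theorem Bd.quot {k : ℕ} {G : Type u} {V : Type v} [Group G] [Finite G] [Group.IsSolvable G] [AddCommGroup V]
    [Module K V] [FiniteDimensional K V] (h : Bd.{u, v} K (finrank K V) k) (ρ : Representation K G V)
    (h1 : (Nat.card G : K) ≠ 0) (h2 : Ch ρ k) : ∃ c, 3 ^ k * c ≤ 3 ^ finrank K V ∧ KF c (G ⧸ MonoidHom.ker ρ) := by
  obtain ⟨s, h2, h3⟩ := h2
  refine h _ V (QuotientGroup.lift _ ρ le_rfl) ((injective_iff_map_eq_one _).2 fun q e => ?_)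
    (ne_zero_of_dvd_ne_zero h1 (Nat.cast_dvd_cast (card_quotient_dvd_card _))) rfl ⟨s, fun i q => ?_, h3⟩
  · obtain ⟨g, rfl⟩ := QuotientGroup.mk_surjective q
    exact (QuotientGroup.eq_one_iff g).2 e
  · obtain ⟨g, rfl⟩ := QuotientGroup.mk_surjective q
    exact h2 i g

theorem bd_two {r k : ℕ} (ih : ∀ r' < r, ∀ k, Bd.{u, v} K r' k) : Bd.{u, v} K r (k + 2) := by
  intro G V _ _ _ _ _ _ ρ hρ h1 hr ⟨s, h2, h3⟩
  subst hr
  have hm : ∀ i ≤ k + 1, s i ≤ s (k + 1) := fun i hi => by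
    induction hi using Nat.decreasingInduction with
    | self => exact le_rfl
    | of_succ j hj ih => exact (h3 j (by omega)).le.trans ih
  obtain ⟨U', h4, h5⟩ := maschke ρ h1 (h2 (k + 1))
  have h6 := Submodule.finrank_add_eq_of_isCompl h4
  have h7 : U' ≠ ⊥ := fun e => (h3 (k + 1) (by omega)).ne_top (eq_top_of_isCompl_bot (e ▸ h4))
  have : Nontrivial U' := Submodule.nontrivial_iff_ne_bot.2 h7
  have : Nontrivial (s (k + 1)) := Submodule.nontrivial_iff_ne_bot.2 (h3 k (by omega)).ne_bot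
  have h8 := finrank_pos (R := K) (M := U')
  have h9 := finrank_pos (R := K) (M := s (k + 1))
  obtain ⟨a, a1, a2⟩ := (ih _ (by omega) 1).quot (ρ.subrepresentation U' h5) h1 (ch_one _)
  obtain ⟨b, b1, b2⟩ := (ih _ (by omega) (k + 1)).quot (ρ.subrepresentation _ (h2 (k + 1))) h1
    ⟨fun i => (s i).comap (s (k + 1)).subtype, fun i g v hv => h2 i g hv, fun i hi =>
      lt_of_le_not_ge (Submodule.comap_mono (h3 i (by omega)).le) fun e =>
        (h3 i (by omega)).not_ge fun v hv => e (x := ⟨v, hm _ hi hv⟩) hv⟩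
  refine ⟨a * b, ?_, KF.prod (QuotientGroup.mk' _) (QuotientGroup.mk' _) (fun x e1 e2 => hρ ?_) a2 b2⟩
  · rw [← h6, pow_add _ (finrank K _), mul_comm (3 ^ finrank K _)]
    exact le_trans (le_of_eq (by ring)) (Nat.mul_le_mul a1 b1)
  · refine LinearMap.ext fun v => ?_
    obtain ⟨u, hu, w, hw, rfl⟩ := Submodule.mem_sup.1 (h4.sup_eq_top.ge (Submodule.mem_top (x := v)))
    have e3 : ρ x u = u := congrArg Subtype.val (LinearMap.congr_fun ((QuotientGroup.eq_one_iff x).1 e2) ⟨u, hu⟩ :)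
    have e4 : ρ x w = w := congrArg Subtype.val (LinearMap.congr_fun ((QuotientGroup.eq_one_iff x).1 e1) ⟨w, hw⟩ :)
    rw [map_add, e3, e4, map_one, End.one_apply]

theorem bd_one [IsAlgClosed K] {r : ℕ} (h : ∀ k, Bd.{u, v} K r (k + 2)) : Bd.{u, v} K r 1 := by
  intro G V _ _ _ _ _ _ ρ hρ h1 hr ⟨s, _, h3⟩
  have : Nontrivial V := (Submodule.nontrivial_iff K).1 ⟨_, _, (h3 0 one_pos).ne⟩
  have h4 := finrank_pos (R := K) (M := V)
  by_cases hs : ∀ B : Subgroup G, B.Normal → IsMulCommutative B → ∀ g ∈ B, ∃ c : K, ρ g = c • 1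
  · exact ⟨_, by rw [← pow_add, ← hr, add_comm, Nat.sub_add_cancel h4], kf_of_scalar ρ hρ hs⟩
  push Not at hs
  obtain ⟨A, _, _, a, ha, hs⟩ := hs
  let σ : Representation K A V := ρ.comp A.subtype
  have hA : ∀ x y : A, x * y = y * x := fun x y => mul_comm' x y
  let Ω := {χ // wt σ χ ≠ ⊥}
  have := (wt_indep σ).fintypeNeBotOfFiniteDimensional
  have h5 : ∀ g χ, ∀ v ∈ wt σ χ, ρ g v ∈ wt σ (χ.comp (MulAut.conjNormal g⁻¹).toMonoidHom) := fun g χ v hv x => by
    have := congrArg (ρ g) (hv (MulAut.conjNormal g⁻¹ x))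
    rw [map_smul] at this
    refine Eq.trans ?_ this
    change ρ x (ρ g v) = ρ g (ρ (g⁻¹ * x * g⁻¹⁻¹) v)
    rw [← End.mul_apply, ← End.mul_apply, ← map_mul, ← map_mul]
    group
  let act : MulAction G Ω :=
    { smul := fun g χ => ⟨χ.1.comp (MulAut.conjNormal g⁻¹).toMonoidHom, by
        obtain ⟨v, h6, h7⟩ := (Submodule.ne_bot_iff _).1 χ.2
        exact (Submodule.ne_bot_iff _).2 ⟨_, h5 g _ v h6, fun e => h7 (by rw [← ρ.inv_self_apply g v, e, map_zero])⟩⟩
      one_smul := fun χ => Subtype.ext (MonoidHom.ext fun x => congrArg χ.1 (by simp))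
      mul_smul := fun g h χ => Subtype.ext (MonoidHom.ext fun x => congrArg χ.1 (by simp)) }
  let φ := MulAction.toPermHom G Ω
  have h6 : 2 ≤ Nat.card Ω := by
    obtain ⟨χ, h6⟩ := exists_wt σ hA (M := ⊤) (fun _ => le_top) top_ne_bot
    obtain ⟨M, h7, h8⟩ := maschke σ (ne_zero_of_dvd_ne_zero h1 (Nat.cast_dvd_cast (card_subgroup_dvd_card A)))
      (U := wt σ χ) fun g v hv => by
        rw [Submodule.mem_comap, hv g]
        exact Submodule.smul_mem _ _ hv
    obtain ⟨χ', h9⟩ := exists_wt σ hA h8 fun e => hs (χ ⟨a, ha⟩) (LinearMap.ext fun v =>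
      ((eq_top_of_isCompl_bot (e ▸ h7 : IsCompl (wt σ χ) ⊥)).ge (Submodule.mem_top (x := v)) : v ∈ wt σ χ) ⟨a, ha⟩)
    exact Finite.one_lt_card_iff_nontrivial.2 ⟨⟨χ, by rwa [inf_top_eq] at h6⟩, ⟨χ', ne_bot_of_le_ne_bot h9 inf_le_left⟩,
      fun e => h9 ((show χ = χ' from congrArg Subtype.val e) ▸ h7.inf_eq_bot)⟩
  obtain ⟨k, hk⟩ : ∃ k, Nat.card Ω = k + 2 := ⟨Nat.card Ω - 2, by omega⟩
  obtain ⟨c, c1, c2⟩ := h k φ.ker V (ρ.comp φ.ker.subtype) (hρ.comp Subtype.val_injective)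
    (ne_zero_of_dvd_ne_zero h1 (Nat.cast_dvd_cast (card_subgroup_dvd_card _))) hr
    (hk ▸ exists_chain ((wt_indep σ).comp (Subtype.val_injective (p := fun χ => wt σ χ ≠ ⊥))) (fun χ => χ.2) _
      (fun _ => bot_le) (fun x y hx hy g => sup_le ((hx g).trans (Submodule.comap_mono le_sup_left))
        ((hy g).trans (Submodule.comap_mono le_sup_right))) fun χ g v hv => by
      have := h5 g χ.1 v hv
      rwa [show χ.1.comp (MulAut.conjNormal g.1⁻¹).toMonoidHom = χ.1 from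
        congrArg Subtype.val (DFunLike.congr_fun (MonoidHom.mem_ker.1 g.2) χ)] at this)
  refine ⟨c * 3 ^ (Nat.card Ω - 1), ?_, KF.ext φ.rangeRestrict (by rwa [MonoidHom.ker_rangeRestrict])
    (Kb.of_card (perm_bound φ))⟩
  rw [hk]
  exact le_trans (le_of_eq (by simp only [Nat.add_succ_sub_one]; ring)) c1

theorem bd [IsAlgClosed K] (r : ℕ) : ∀ k, Bd.{u, v} K r k := by
  induction r using Nat.strong_induction_on with
  | _ r ih =>
  have h1 := bd_one fun k => bd_two (k := k) ih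
  rintro (_ | _ | k)
  · intro G V _ _ _ _ _ _ ρ hρ h2 hr _
    rcases subsingleton_or_nontrivial V with _ | _
    · have : Subsingleton G := hρ.subsingleton
      exact ⟨1, by simpa using Nat.one_le_pow _ _ (by norm_num), KF.of_hom (MonoidHom.id G) inferInstance
        (Kb.of_card Nat.card_unique.le)⟩
    · obtain ⟨c, c1, c2⟩ := h1 G V ρ hρ h2 hr (ch_one ρ)
      exact ⟨c, by omega, c2⟩
  · exact h1
  · exact bd_two ih

theorem kf_of_rep [IsAlgClosed K] {G V : Type*} [Group G] [Finite G] [Group.IsSolvable G] [AddCommGroup V] [Module K V]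
    [FiniteDimensional K V] [Nontrivial V] (ρ : Representation K G V) (hρ : Function.Injective ρ)
    (h : (Nat.card G : K) ≠ 0) : KF (3 ^ (finrank K V - 1)) G := by
  obtain ⟨c, c1, c2⟩ := bd _ 1 G V ρ hρ h rfl (ch_one ρ)
  obtain ⟨n, hn⟩ : ∃ n, finrank K V = n + 1 := ⟨_, (Nat.sub_add_cancel finrank_pos).symm⟩
  rw [hn, pow_succ 3 n] at c1
  exact c2.mono (by rw [hn, Nat.add_sub_cancel]; omega)

theorem kf_of_matrix [IsAlgClosed K] {G : Type*} [Group G] [Finite G] [Group.IsSolvable G] {n : ℕ} (hn : 0 < n)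
    (f : G →* Matrix (Fin n) (Fin n) K) (hf : Function.Injective f) (h : (Nat.card G : K) ≠ 0) :
    KF (3 ^ (n - 1)) G := by
  have : Nonempty (Fin n) := ⟨⟨0, hn⟩⟩
  simpa using kf_of_rep (V := Fin n → K) ((Matrix.toLinAlgEquiv' (R := K) (n := Fin n)).toMonoidHom.comp f)
    (Matrix.toLinAlgEquiv'.injective.comp hf) h

end CfsgLib.KFit
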