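import Mathlib
import Cfsg.Agent.Lib.KFit.Main
import Cfsg.Agent.S4958

/-!
# Class numbers of affine groups
-/

set_option autoImplicit false

namespace CfsgLib.KFit

open Cfsg Subgroup CfsgLib.Base

/-- the semidirect product of a module and the acting group -/
@[ext] structure SD (G V : Type*) where
  v : V
  g : G

variable {G V : Type*} [Group G] [AddCommGroup V] [DistribMulAction G V]

instance : Mul (SD G V) := ⟨fun a b => ⟨a.v + a.g • b.v, a.g * b.g⟩⟩

instance : One (SD G V) := ⟨⟨0, 1⟩⟩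

instance : Inv (SD G V) := ⟨fun a => ⟨-(a.g⁻¹ • a.v), a.g⁻¹⟩⟩

@[simp] theorem SD.mul_v (a b : SD G V) : (a * b).v = a.v + a.g • b.v := rfl

@[simp] theorem SD.mul_g (a b : SD G V) : (a * b).g = a.g * b.g := rfl

omit [DistribMulAction G V] in
@[simp] theorem SD.one_v : (1 : SD G V).v = 0 := rfl

omit [DistribMulAction G V] in
@[simp] theorem SD.one_g : (1 : SD G V).g = 1 := rfl

@[simp] theorem SD.inv_v (a : SD G V) : a⁻¹.v = -(a.g⁻¹ • a.v) := rfl

@[simp] theorem SD.inv_g (a : SD G V) : a⁻¹.g = a.g⁻¹ := rfl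

instance : Group (SD G V) := Group.ofLeftAxioms
  (fun a b c => SD.ext (by simp [mul_smul, add_assoc]) (mul_assoc _ _ _))
  (fun a => SD.ext (by simp) (one_mul _)) fun a => SD.ext (by simp) (inv_mul_cancel _)

instance [Finite G] [Finite V] : Finite (SD G V) :=
  Finite.of_injective (fun a : SD G V => (a.v, a.g)) fun _ _ e => SD.ext (congrArg Prod.fst e) (congrArg Prod.snd e)

/-- functoriality -/
def SD.map {G' V' : Type*} [Group G'] [AddCommGroup V'] [DistribMulAction G' V'] (f : G →* G') (l : V →+ V')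
    (h : ∀ g v, l (g • v) = f g • l v) : SD G V →* SD G' V' :=
  MonoidHom.mk' (fun a => ⟨l a.v, f a.g⟩) fun a b => SD.ext (by simp [h]) (by simp)

variable (G V) in
/-- the projection -/
def SD.snd : SD G V →* G := MonoidHom.mk' SD.g fun _ _ => rfl

variable (G V) in
/-- the complement -/
def SD.inr : G →* SD G V := MonoidHom.mk' (fun g => ⟨0, g⟩) fun _ _ => SD.ext (by simp) rfl

/-- the action on a quotient -/
@[reducible] def quotAct {U : AddSubgroup V} (h : MInv G U) : DistribMulAction G (V ⧸ U) where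
  smul g := QuotientAddGroup.map U U (DistribSMul.toAddMonoidHom V g) (h g)
  one_smul q := QuotientAddGroup.induction_on q fun v => congrArg QuotientAddGroup.mk (one_smul G v)
  mul_smul a b q := QuotientAddGroup.induction_on q fun v => congrArg QuotientAddGroup.mk (mul_smul a b v)
  smul_zero _ := map_zero (QuotientAddGroup.map U U _ _)
  smul_add _ := map_add (QuotientAddGroup.map U U _ _)

variable [Finite G] [Finite V]

theorem kc_sd_le {Y : Type*} [Group Y] (f : G →* Y) : kc (SD G V) ≤ kc (SD f.ker V) * kc f.range := by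
  have : Finite f.range := Finite.of_surjective _ f.rangeRestrict_surjective
  refine kc_le_mul (f.rangeRestrict.comp (SD.snd G V)) (f.rangeRestrict_surjective.comp fun g => ⟨⟨0, g⟩, rfl⟩)
    (SD.map f.ker.subtype (AddMonoidHom.id V) fun _ _ => rfl) (le_antisymm ?_ fun a ha => ?_)
  · rintro _ ⟨a, rfl⟩
    exact Subtype.ext a.g.2
  · exact ⟨⟨a.v, a.g, congrArg Subtype.val ha⟩, rfl⟩

theorem kc_sd_quot {U : AddSubgroup V} (h : MInv G U) :
    letI := quotAct h
    letI := resAct (G := kerA G (V ⧸ U)) (U := U) fun g => h g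
    kc (SD G V) ≤ kc (SD (kerA G (V ⧸ U)) U) * kc (SD (rng G (V ⧸ U)) (V ⧸ U)) := by
  let := quotAct h
  let := resAct (G := kerA G (V ⧸ U)) (U := U) fun g => h g
  refine kc_le_mul (SD.map (MonoidHom.rangeRestrict _) (QuotientAddGroup.mk' U) fun _ _ => rfl) ?_
    (SD.map (kerA G (V ⧸ U)).subtype U.subtype fun _ _ => rfl) (le_antisymm ?_ fun a ha => ?_)
  · rintro ⟨q, _, g, rfl⟩
    obtain ⟨v, rfl⟩ := QuotientAddGroup.mk_surjective q
    exact ⟨⟨v, g⟩, rfl⟩
  · rintro _ ⟨a, rfl⟩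
    exact SD.ext ((QuotientAddGroup.eq_zero_iff _).2 a.v.2) (Subtype.ext (LinearEquiv.ext (mem_kerA.1 a.g.2)))
  · exact ⟨⟨⟨a.v, (QuotientAddGroup.eq_zero_iff _).1 (congrArg SD.v ha)⟩, a.g,
      mem_kerA.2 fun q => congrArg (fun b : SD (rng G (V ⧸ U)) (V ⧸ U) => b.g.1 q) ha⟩, rfl⟩

theorem kc_sd_le_card [FaithfulSMul G V] {p : ℕ} [hp : Fact p.Prime] (hV : ∀ v : V, p • v = 0)
    (hG : ¬ p ∣ Nat.card G) (v : V) (h : ∀ x y : G, x • v = v → y • v = v → x * y = y * x) :
    kc (SD G V) ≤ Nat.card V := by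
  have h1 : Nat.card (SD.snd G V).ker = Nat.card V := Nat.card_eq_of_bijective (fun a => a.1.v)
    ⟨fun a b e => Subtype.ext (SD.ext e (a.2.trans b.2.symm)), fun w => ⟨⟨⟨w, 1⟩, rfl⟩, rfl⟩⟩
  have h2 : ∀ (w : V) (n : ℕ), (⟨w, 1⟩ : SD G V) ^ n = ⟨n • w, 1⟩ := fun w n => by
    induction n with
    | zero => exact SD.ext (zero_nsmul w).symm rfl
    | succ n ih => rw [pow_succ, ih]; exact SD.ext (by simp [succ_nsmul]) (mul_one _)
  have hs : Function.Surjective (SD.snd G V) := fun g => ⟨⟨0, g⟩, rfl⟩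
  refine h1 ▸ Cfsg.Agent.S4958.result p (SD.snd G V).ker ?_ ?_ (le_antisymm (fun a ha => ?_) ?_) (SD.inr G V).range
    ?_ ⟨v, 1⟩ rfl ?_
  · rintro ⟨w, g⟩ rfl
    rw [h2, hV]; rfl
  · rwa [index_ker, MonoidHom.range_eq_top.2 hs, card_top]
  · refine eq_of_smul_eq_smul fun w : V => ?_
    simpa [add_comm a.v, SD.snd] using (congrArg SD.v (ha ⟨w, 1⟩ rfl)).symm
  · rintro ⟨w, g⟩ rfl ⟨w', g⟩ rfl
    exact SD.ext (by simp [add_comm]) rfl
  · refine isComplement'_of_disjoint_and_mul_eq_univ (disjoint_def.2 ?_) (Set.eq_univ_of_forall fun a =>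
      ⟨⟨a.v, 1⟩, rfl, _, ⟨a.g, rfl⟩, SD.ext (by simp [SD.inr]) (one_mul _)⟩)
    rintro _ h3 ⟨g, rfl⟩
    exact SD.ext rfl h3
  · rintro _ ⟨⟨x, rfl⟩, hx⟩ _ ⟨⟨y, rfl⟩, hy⟩
    rw [← map_mul, ← map_mul, h x y]
    · simpa [SD.inr] using congrArg SD.v (mem_centralizer_singleton_iff.1 hx)
    · simpa [SD.inr] using congrArg SD.v (mem_centralizer_singleton_iff.1 hy)

omit [Finite G] [Finite V] in
theorem faithful_kerA [FaithfulSMul G V] {p : ℕ} (hp : p.Prime) (hV : ∀ v : V, p • v = 0) (hG : ¬ p ∣ Nat.card G)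
    {U : AddSubgroup V} (h : MInv G U) :
    letI := quotAct h
    letI := resAct (G := kerA G (V ⧸ U)) (U := U) fun g => h g
    FaithfulSMul (kerA G (V ⧸ U)) U := by
  let := quotAct h
  let := resAct (G := kerA G (V ⧸ U)) (U := U) fun g => h g
  have key : ∀ g ∈ kerA G (V ⧸ U), (∀ u ∈ U, g • u = u) → g = 1 := fun g hg h1 => eq_of_smul_eq_smul fun v : V => by
    have h2 : g • v - v ∈ U := QuotientAddGroup.eq_iff_sub_mem.1 (mem_kerA.1 hg v)
    have h3 : ∀ n : ℕ, g ^ n • v = v + n • (g • v - v) := fun n => by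
      induction n with
      | zero => simp
      | succ n ih => rw [pow_succ', mul_smul, ih, smul_add, h1 _ (nsmul_mem h2 n), succ_nsmul]; abel
    have h4 := h3 (Nat.card G)
    rw [pow_card_eq_one', one_smul, left_eq_add] at h4
    rw [one_smul, ← sub_eq_zero]
    exact AddMonoid.addOrderOf_eq_one_iff.1 (Nat.eq_one_of_dvd_coprimes (hp.coprime_iff_not_dvd.2 hG)
      (addOrderOf_dvd_of_nsmul_eq_zero (hV _)) (addOrderOf_dvd_of_nsmul_eq_zero h4))
  refine ⟨fun {a b} e => Subtype.ext (inv_mul_eq_one.1 (key _ (mul_mem (inv_mem a.2) b.2) fun u hu => ?_))⟩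
  rw [mul_smul, inv_smul_eq_iff]
  exact (congrArg Subtype.val (e ⟨u, hu⟩)).symm

end CfsgLib.KFit
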