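import Mathlib
import Cfsg.Agent.Lib.KFit.SD

/-!
# `k(GV) ≤ 3 ^ (r - 1) |V|` for solvable coprime linear groups
-/

set_option autoImplicit false

namespace CfsgLib.KFit

open Cfsg Subgroup CfsgLib.Base
open scoped Pointwise commutatorElement

universe u

theorem card_ringAut_le {K : Type*} [Field K] [Finite K] (p : ℕ) [Fact p.Prime] [CharP K p] :
    ∃ a, Nat.card K = p ^ a ∧ Nat.card (RingAut K) ≤ a := by
  let _ := ZMod.algebra K p
  refine ⟨Module.finrank (ZMod p) K, by rw [Module.natCard_eq_pow_finrank (K := ZMod p), Nat.card_zmod], ?_⟩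
  refine (Nat.card_le_card_of_injective (fun σ : RingAut K => (AlgEquiv.ofRingEquiv (f := σ) fun x =>
    DFunLike.congr_fun (RingHom.ext_zmod ((σ : K →+* K).comp (algebraMap (ZMod p) K)) (algebraMap (ZMod p) K)) x :
      K ≃ₐ[ZMod p] K)) fun a b h => RingEquiv.ext fun x => DFunLike.congr_fun h x).trans ?_
  rw [Nat.card_eq_fintype_card]
  exact AlgEquiv.card_le

variable {p : ℕ} [hp : Fact p.Prime]

theorem gv_prim {G V : Type*} [Group G] [Finite G] [Group.IsSolvable G] [AddCommGroup V] [Finite V] [Nontrivial V]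
    [DistribMulAction G V] [FaithfulSMul G V] (hV : ∀ v : V, p • v = 0) (hG : ¬ p ∣ Nat.card G) {r : ℕ}
    (hr : Nat.card V = p ^ r) (h : Prim G V) : 3 * kc (SD G V) ≤ 3 ^ r * p ^ r := by
  obtain ⟨K, _, _, _, ⟨S⟩⟩ := h.exists_setup
  obtain ⟨v, hv⟩ := exists_ne (0 : V)
  have : CharP K p := (CharP.charP_iff_prime_eq_zero hp.out).2
    ((smul_eq_zero.1 ((Nat.cast_smul_eq_nsmul K p v).trans (hV v))).resolve_right hv)
  obtain ⟨f, h1, h2⟩ := card_ringAut_le (K := K) p
  have : Module.Finite K V := Module.Finite.of_finite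
  have h3 : 0 < Module.finrank K V := Module.finrank_pos
  have h4 : r = f * Module.finrank K V := Nat.pow_right_injective hp.out.two_le (by
    simp only [← hr, pow_mul, ← h1, Module.natCard_eq_pow_finrank (K := K) (V := V)])
  have : Finite (RingAut K) := Finite.of_injective _ DFunLike.coe_injective
  have h5 : 0 < f := Nat.card_pos.trans_le h2
  have hC : ∀ g : S.σ.ker, g.1 ∈ centralizer (S.A : Set G) := fun g => S.ker ▸ g.2
  have hG' : ¬ p ∣ Nat.card S.σ.ker := fun e => hG (e.trans (card_subgroup_dvd_card _))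
  let ρ : S.σ.ker →* Module.End K V :=
    { toFun := fun g => { DistribSMul.toAddMonoidHom V g.1 with map_smul' := PSetup.lin (hC g) }
      map_one' := LinearMap.ext fun w => one_smul G w
      map_mul' := fun a b => LinearMap.ext fun w => mul_smul a.1 b.1 w }
  have := Core.fittingSubgroup_normal S.σ.ker
  have h6 := (kf_of_matrix h3 ((algebraMap K (AlgebraicClosure K)).mapMatrix.toMonoidHom.comp
    ((LinearMap.toMatrixAlgEquiv (Module.finBasis K V)).toMonoidHom.comp ρ))
    ((Matrix.map_injective (algebraMap K (AlgebraicClosure K)).injective).comp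
      ((LinearMap.toMatrixAlgEquiv (Module.finBasis K V)).injective.comp fun a b e =>
        Subtype.ext (eq_of_smul_eq_smul fun w : V => LinearMap.congr_fun e w)))
    fun e => hG' ((CharP.cast_eq_zero_iff _ p _).1 e)).fit
  let q := QuotientGroup.mk' (fittingSubgroup S.σ.ker)
  have h7 : kc (SD q.ker V) ≤ Nat.card V := kc_sd_le_card hV (fun e => hG' (e.trans (card_subgroup_dvd_card _))) v
    fun x y hx hy => by
      have h8 : ∀ x : q.ker, x.1.1 ∈ S.F := fun x => ⟨Core.map_fittingSubgroup_le_of_normal S.σ.ker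
        (mem_map_of_mem _ ((QuotientGroup.eq_one_iff _).1 x.2)), hC _⟩
      have h9 := S.commutator_le (commutator_mem_commutator (h8 x) (h8 y))
      have h10 := S.scal ⟨_, h9⟩ v
      have h11 : ⁅x.1.1, y.1.1⁆ ∈ MulAction.stabilizer G v :=
        mul_mem (mul_mem (mul_mem hx hy) (inv_mem (x := x.1.1) hx)) (inv_mem (x := y.1.1) hy)
      rw [show ((⟨_, h9⟩ : S.A) : G) • v = (1 : K) • v from h11.trans (one_smul K v).symm] at h10
      have h12 := S.ι_injective ((Units.ext (smul_left_injective K hv h10).symm).trans (map_one S.ι).symm)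
      exact Subtype.ext (Subtype.ext (commutatorElement_eq_one_iff_mul_comm.1 (congrArg Subtype.val h12)))
  have h8 := (kc_sd_le (V := V) S.σ).trans (Nat.mul_le_mul ((kc_sd_le (V := V) q).trans (Nat.mul_le_mul h7 (h6 _)))
    ((kc_le_card _).trans ((card_le_card_group _).trans h2)))
  obtain ⟨a, rfl⟩ : ∃ a, f = a + 1 := ⟨f - 1, by omega⟩
  obtain ⟨b, hb⟩ : ∃ b, Module.finrank K V = b + 1 := ⟨_, (Nat.sub_add_cancel h3).symm⟩
  have h9 : a + 1 ≤ 3 ^ a := Nat.lt_pow_self (by norm_num)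
  have h10 : 3 ^ (b + a + 1) ≤ 3 ^ r := Nat.pow_le_pow_right (by norm_num) (by rw [h4, hb]; nlinarith [a.zero_le, b.zero_le])
  rw [hb, hr, Nat.add_sub_cancel] at h8
  calc 3 * kc (SD G V) ≤ 3 * (p ^ r * 3 ^ b * 3 ^ a) :=
        Nat.mul_le_mul_left _ (h8.trans (Nat.mul_le_mul_left _ h9))
    _ = 3 ^ (b + a + 1) * p ^ r := by ring
    _ ≤ _ := Nat.mul_le_mul_right _ h10

variable (p) in
/-- the bound for modules of order `p ^ r` with a chain of length `k` -/
def Gv (r k : ℕ) : Prop :=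
  ∀ (G V : Type u) [Group G] [Finite G] [Group.IsSolvable G] [AddCommGroup V] [Finite V] [DistribMulAction G V]
    [FaithfulSMul G V], (∀ v : V, p • v = 0) → ¬ p ∣ Nat.card G → Nat.card V = p ^ r →
      ∀ s : ℕ → AddSubgroup V, (∀ i, MInv G (s i)) → (∀ i < k, s i < s (i + 1)) → 3 ^ k * kc (SD G V) ≤ 3 ^ r * p ^ r

omit hp in
theorem Gv.one {r : ℕ} (h : Gv.{u} p r 1) {G V : Type u} [Group G] [Finite G] [Group.IsSolvable G] [AddCommGroup V]
    [Finite V] [Nontrivial V] [DistribMulAction G V] [FaithfulSMul G V] (hV : ∀ v : V, p • v = 0)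
    (hG : ¬ p ∣ Nat.card G) (hr : Nat.card V = p ^ r) : 3 * kc (SD G V) ≤ 3 ^ r * p ^ r :=
  h G V hV hG hr (fun i => if i = 0 then ⊥ else ⊤) (fun i g u => by by_cases h : i = 0 <;> simp +contextual [h])
    fun i hi => by
      obtain rfl : i = 0 := by omega
      simp

theorem gv_two {r k : ℕ} (ih : ∀ r' < r, ∀ k, Gv.{u} p r' (k + 1)) : Gv.{u} p r (k + 2) := by
  intro G V _ _ _ _ _ _ _ hV hG hr s h2 h3
  have hm : ∀ i ≤ k + 1, s i ≤ s (k + 1) := fun i hi => by
    induction hi using Nat.decreasingInduction with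
    | self => exact le_rfl
    | of_succ j hj ih => exact (h3 j (by omega)).le.trans ih
  have h4 := AddSubgroup.card_eq_card_quotient_mul_card_addSubgroup (s (k + 1))
  obtain ⟨a, -, ha⟩ := (Nat.dvd_prime_pow hp.out).1 (hr ▸ (s (k + 1)).card_addSubgroup_dvd_card)
  obtain ⟨b, -, hb⟩ := (Nat.dvd_prime_pow hp.out).1 (hr ▸ (s (k + 1)).card_quotient_dvd_card)
  have h5 : r = b + a := Nat.pow_right_injective hp.out.two_le (by simp only [← hr, h4, ha, hb, pow_add])
  have : Nontrivial (V ⧸ s (k + 1)) := QuotientAddGroup.nontrivial_iff.2 (h3 (k + 1) (by omega)).ne_top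
  have h6 : a ≠ 0 := fun e => (h3 k (by omega)).ne_bot (AddSubgroup.card_eq_one.1 (by rw [ha, e, pow_zero]))
  have h7 : b ≠ 0 := fun e => (Finite.one_lt_card (α := V ⧸ s (k + 1))).ne' (by rw [hb, e, pow_zero])
  have h8 := kc_sd_quot (h2 (k + 1))
  have h9 := faithful_kerA hp.out hV hG (h2 (k + 1))
  let := quotAct (h2 (k + 1))
  let := resAct (G := kerA G (V ⧸ s (k + 1))) (U := s (k + 1)) fun g => h2 (k + 1) g
  have h10 := ih a (by omega) k (kerA G (V ⧸ s (k + 1))) (s (k + 1)) (fun v => Subtype.ext (hV v))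
    (fun e => hG (e.trans (card_subgroup_dvd_card _))) ha (fun i => (s i).addSubgroupOf (s (k + 1)))
    (fun i g u hu => h2 i g u hu) fun i hi => lt_of_le_not_ge (AddSubgroup.comap_mono (h3 i (by omega)).le) fun e =>
      (h3 i (by omega)).not_ge fun v hv => e (x := ⟨v, hm _ hi hv⟩) hv
  have h11 := (ih b (by omega) 0).one (G := rng G (V ⧸ s (k + 1))) (V := V ⧸ s (k + 1))
    (fun q => QuotientAddGroup.induction_on q fun v => by rw [← QuotientAddGroup.mk_nsmul, hV]; rfl)
    (fun e => hG (e.trans card_rng_dvd)) hb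
  calc _ ≤ 3 ^ (k + 2) * _ := Nat.mul_le_mul_left _ h8
    _ = _ := by ring
    _ ≤ _ := Nat.mul_le_mul h10 h11
    _ = _ := by rw [h5]; ring

theorem gv_one {r : ℕ} (h : ∀ k, Gv.{u} p r (k + 2)) : Gv.{u} p r 1 := by
  intro G V _ _ _ _ _ _ _ hV hG hr s _ h3
  have : Nontrivial V := AddSubgroup.nontrivial_iff.1 ⟨_, _, (h3 0 one_pos).ne⟩
  by_cases hP : Prim G V
  · exact gv_prim hV hG hr hP
  obtain ⟨U, h0, hU, h1⟩ : ∃ U : AddSubgroup V, U ≠ ⊥ ∧ Blk G U ∧ U ≠ ⊤ := by
    by_contra e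
    exact hP fun U h0 hU => by_contra fun h1 => e ⟨U, h0, hU, h1⟩
  by_cases hI : ∀ g : G, g • U = U
  · have := h 0 G V hV hG hr (fun i => if i = 0 then ⊥ else if i = 1 then U else ⊤) (fun i g u hu => by
      split_ifs at hu ⊢
      · rw [AddSubgroup.mem_bot.1 hu, smul_zero]; exact zero_mem _
      · exact hI g ▸ AddSubgroup.smul_mem_pointwise_smul u g U hu
      · trivial) fun i hi => by
        interval_cases i
        exacts [bot_lt_iff_ne_bot.2 h0, lt_top_iff_ne_top.2 h1]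
    omega
  have : Finite (AddSubgroup V) := Finite.of_injective _ SetLike.coe_injective
  let φ := MulAction.toPermHom G (MulAction.orbit G U)
  obtain ⟨g₀, h4⟩ := not_forall.1 hI
  have h5 : 1 < Nat.card (MulAction.orbit G U) := Finite.one_lt_card_iff_nontrivial.2
    ⟨⟨_, MulAction.mem_orbit U g₀⟩, ⟨U, MulAction.mem_orbit_self U⟩, fun e => h4 (congrArg Subtype.val e)⟩
  obtain ⟨k, hk⟩ : ∃ k, Nat.card (MulAction.orbit G U) = k + 2 := ⟨_, (Nat.sub_add_cancel h5).symm⟩
  obtain ⟨t, t1, t2⟩ := exists_chain (t := fun W : MulAction.orbit G U => W.1) (by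
      rintro ⟨_, g, rfl⟩
      refine AddSubgroup.disjoint_def.2 fun {x} hx hx' => (smul_eq_zero_iff_eq g⁻¹).1
        (AddSubgroup.disjoint_def.1 hU (AddSubgroup.mem_pointwise_smul_iff_inv_smul_mem.1 hx) ?_)
      refine AddSubgroup.mem_pointwise_smul_iff_inv_smul_mem.1 (SetLike.le_def.1 (iSup₂_le ?_) hx')
      rintro ⟨_, g', rfl⟩ hne y hy
      refine AddSubgroup.mem_pointwise_smul_iff_inv_smul_mem.2 (le_iSup₂_of_le
        (f := fun (g : G) (_ : g • U ≠ U) => g • U) (g⁻¹ * g') (fun e => hne (Subtype.ext ?_)) le_rfl ?_)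
      · rwa [mul_smul, inv_smul_eq_iff] at e
      · rw [mul_smul]
        exact AddSubgroup.smul_mem_pointwise_smul y g⁻¹ _ hy)
    (by
      rintro ⟨_, g, rfl⟩ e
      refine h0 (eq_bot_iff.2 fun x hx => (smul_eq_zero_iff_eq g).1 (AddSubgroup.mem_bot.1 ?_))
      exact e.le (AddSubgroup.smul_mem_pointwise_smul x g U hx))
    (MInv φ.ker) (fun g u hu => by rw [AddSubgroup.mem_bot.1 hu, smul_zero]; exact zero_mem _)
    (fun x y hx hy g u hu => by
      obtain ⟨a, ha, b, hb, rfl⟩ := AddSubgroup.mem_sup.1 hu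
      rw [smul_add]
      exact AddSubgroup.add_mem_sup (hx g a ha) (hy g b hb)) fun W g u hu => by
      have e : g.1 • W.1 = W.1 := congrArg Subtype.val (DFunLike.congr_fun (MonoidHom.mem_ker.1 g.2) W)
      exact e.le (AddSubgroup.smul_mem_pointwise_smul u g.1 _ hu)
  have h6 := h k φ.ker V hV (fun e => hG (e.trans (card_subgroup_dvd_card _))) hr t t1 (hk ▸ t2)
  have h7 := (kc_sd_le (V := V) φ).trans (Nat.mul_le_mul_left _ ((kc_le_card _).trans (perm_bound φ)))
  rw [hk] at h7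
  calc _ ≤ 3 ^ 1 * _ := Nat.mul_le_mul_left _ h7
    _ = _ := by simp only [Nat.add_succ_sub_one]; ring
    _ ≤ _ := h6

theorem gv (r : ℕ) : ∀ k, Gv.{u} p r (k + 1) := by
  induction r using Nat.strong_induction_on with
  | _ r ih =>
  rintro (_ | k)
  exacts [gv_one fun _ => gv_two ih, gv_two ih]

end CfsgLib.KFit
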