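import Mathlib
import Cfsg.Agent.Lib.KFit.GV

/-!
# The class number of a solvable group with `O_{p'} = 1`
-/

set_option autoImplicit false

namespace CfsgLib.KFit

open Cfsg Subgroup CfsgLib.Base
open scoped IsMulCommutative

universe u

variable {p : ℕ} [hp : Fact p.Prime]

theorem kc_le_of_normal_sylow {X : Type u} [Group X] [Finite X] [Group.IsSolvable X]
    (hC : centralizer (pCore p X : Set X) ≤ pCore p X) (hi : ¬ p ∣ (pCore p X).index) {a : ℕ}
    (ha : Nat.card (pCore p X) = p ^ a) (h0 : pCore p X ≠ ⊥) : 3 * kc X ≤ 3 ^ a * p ^ a := by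
  have hP := Core.isPGroup_pCore p X
  obtain ⟨H, hc⟩ := exists_right_complement'_of_coprime (N := pCore p X)
    (ha ▸ (hp.out.coprime_iff_not_dvd.2 hi).pow_left a)
  let e := hc.symm.QuotientMulEquiv
  let π : X →* H := e.toMonoidHom.comp (QuotientGroup.mk' _)
  have h1 : ∀ h : H, π h = h := fun h => e.apply_symm_apply h
  have h2 : ∀ n ∈ pCore p X, π n = 1 := fun n hn => by simp [π, (QuotientGroup.eq_one_iff n).2 hn]
  have h3 : ∀ g, g * (π g : X)⁻¹ ∈ pCore p X := fun g => by
    rw [← QuotientGroup.eq_one_iff, QuotientGroup.mk_mul, QuotientGroup.mk_inv,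
      show ((π g : X) : X ⧸ pCore p X) = e.symm (π g) from rfl]
    simp [π]
  have := Core.isMulCommutative_quotient_frattini hP
  let V := Additive (pCore p X ⧸ frattini (pCore p X))
  let act : DistribMulAction H V :=
    { smul := fun h v => Additive.ofMul (InvChar.conjFrat p X h v.toMul)
      one_smul := fun v => DFunLike.congr_fun (map_one (InvChar.conjFrat p X)) v.toMul
      mul_smul := fun a b v => DFunLike.congr_fun (map_mul (InvChar.conjFrat p X) a.1 b.1) v.toMul
      smul_zero := fun h => map_one (InvChar.conjFrat p X h)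
      smul_add := fun h => map_mul (InvChar.conjFrat p X h) }
  have : FaithfulSMul H V := ⟨fun {a b} e => Subtype.ext (inv_mul_eq_one.1 (disjoint_def.1 hc.disjoint
    ((InvChar.ker_conjFrat hC).le (MonoidHom.mem_ker.2 (by
      rw [map_mul, map_inv, inv_mul_eq_one]; exact MulEquiv.ext e))) (mul_mem (inv_mem a.2) b.2)))⟩
  have : Nontrivial (pCore p X) := (nontrivial_iff_ne_bot _).2 h0
  have : Nontrivial V := QuotientGroup.nontrivial_iff.2 Core.frattini_ne_top
  obtain ⟨r, hr⟩ := (hP.to_quotient (frattini _)).exists_card_eq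
  have h4 := (gv r 0).one (G := H) (V := V) (Core.pow_eq_one_quotient_frattini hP)
    (by rwa [← hc.symm.index_eq_card]) hr
  let f : X →* SD H V := MonoidHom.mk' (fun x => ⟨Additive.ofMul (QuotientGroup.mk ⟨_, h3 x⟩), π x⟩) fun x y =>
    SD.ext (congrArg (fun u : pCore p X => Additive.ofMul (QuotientGroup.mk (s := frattini _) u))
      (Subtype.ext (by simp [mul_assoc]) : _ = ⟨_, h3 x⟩ * MulAut.conjNormal (π x).1 ⟨_, h3 y⟩)) (map_mul π x y)
  have h5 := kc_le_mul f (by
      rintro ⟨v, h⟩
      obtain ⟨u, rfl⟩ := QuotientGroup.mk_surjective (s := frattini (pCore p X)) v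
      have h6 : π (u * h) = h := by rw [map_mul, h2 _ u.2, h1, one_mul]
      exact ⟨u * h, SD.ext (congrArg QuotientGroup.mk (Subtype.ext (by simp [h6]))) h6⟩)
    ((pCore p X).subtype.comp (frattini (pCore p X)).subtype) (le_antisymm (by
      rintro _ ⟨u, rfl⟩
      have h6 := h2 _ u.1.2
      exact SD.ext ((QuotientGroup.eq_one_iff _).2 (by
        convert u.2 using 1
        exact Subtype.ext (by simp [h6]))) h6) fun x hx =>
      ⟨⟨_, (QuotientGroup.eq_one_iff _).1 (congrArg SD.v hx)⟩, by simp [show π x = 1 from congrArg SD.g hx]⟩)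
  have h6 := card_eq_card_quotient_mul_card_subgroup (frattini (pCore p X))
  have h7 : r ≤ a := (Nat.pow_dvd_pow_iff_le_right hp.out.one_lt).1 ⟨_, by rw [← ha, h6, hr]⟩
  calc 3 * kc X ≤ 3 * (Nat.card (frattini (pCore p X)) * kc (SD H V)) :=
        Nat.mul_le_mul_left _ (h5.trans (Nat.mul_le_mul_right _ (kc_le_card _)))
    _ = Nat.card (frattini (pCore p X)) * (3 * kc (SD H V)) := by ring
    _ ≤ Nat.card (frattini (pCore p X)) * (3 ^ a * p ^ r) := Nat.mul_le_mul_left _
        (h4.trans (Nat.mul_le_mul_right _ (Nat.pow_le_pow_right (by norm_num) h7)))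
    _ = _ := by rw [← ha, h6, hr]; ring

theorem kc_le_of_pPrimeCore (d : ℕ) : ∀ (X : Type u) [Group X] [Finite X] [Group.IsSolvable X],
    pPrimeCore p X = ⊥ → (Nat.card X).factorization p = d → kc X ≤ 3 ^ (d - 1) * p ^ d := by
  induction d using Nat.strong_induction_on with
  | _ d ih =>
  intro X _ _ _ h hd
  rcases subsingleton_or_nontrivial X with _ | _
  · exact (kc_le_card X).trans (Nat.card_unique.trans_le (Nat.mul_pos (by positivity) (pow_pos hp.out.pos _)))
  have h0 : pCore p X ≠ ⊥ :=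
    Core.fittingSubgroup_eq_pCore_of_pPrimeCore_eq_bot hp.out h ▸ Core.fittingSubgroup_ne_bot
  let f := (QuotientGroup.mk' (pPrimeCore p (X ⧸ pCore p X))).comp (QuotientGroup.mk' (pCore p X))
  have hf : Function.Surjective f := QuotientGroup.mk_surjective.comp QuotientGroup.mk_surjective
  have hk : f.ker = (pPrimeCore p (X ⧸ pCore p X)).comap (QuotientGroup.mk' _) := by
    rw [← MonoidHom.comap_ker, QuotientGroup.ker_mk']
  have h1 : pCore p X ≤ f.ker := fun x hx => by simp [f, (QuotientGroup.eq_one_iff x).2 hx]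
  obtain ⟨a, ha⟩ := (Core.isPGroup_pCore p X).exists_card_eq
  have h2 : pCore p f.ker = (pCore p X).subgroupOf f.ker := Core.pCore_eq_subgroupOf_of_normal _
  have h3 : Nat.card (pCore p f.ker) = p ^ a := by
    rw [h2, Nat.card_congr (subgroupOfEquivOfLe h1).toEquiv, ha]
  have h4 : (pCore p f.ker).index = Nat.card (pPrimeCore p (X ⧸ pCore p X)) := by
    have := relIndex_ker f.ker (QuotientGroup.mk' (pCore p X))
    rwa [QuotientGroup.ker_mk', relIndex, ← h2, hk, map_comap_eq_self_of_surjective QuotientGroup.mk_surjective,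
      ← hk] at this
  have h5 : a ≠ 0 := fun e => h0 (card_eq_one.1 (by rw [ha, e, pow_zero]))
  have h6 := kc_le_of_normal_sylow (X := f.ker) (Core.centralizer_pCore_le_of_isSolvable hp.out (by
    rw [Core.pPrimeCore_eq_subgroupOf_of_normal, h, bot_subgroupOf])) (h4 ▸ Core.not_dvd_card_pPrimeCore hp.out _) h3
    fun e => h5 (Nat.pow_right_injective hp.out.two_le (by simp only [← h3, e, card_bot, pow_zero]))
  have h7 := f.ker.card_mul_index
  rw [index_ker, MonoidHom.range_eq_top.2 hf, card_top, ← (pCore p f.ker).card_mul_index, h3, h4] at h7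
  rw [← h7, Nat.factorization_mul (mul_ne_zero (pow_ne_zero _ hp.out.ne_zero) Nat.card_pos.ne') Nat.card_pos.ne',
    Nat.factorization_mul (pow_ne_zero _ hp.out.ne_zero) Nat.card_pos.ne', Finsupp.add_apply, Finsupp.add_apply,
    Nat.factorization_eq_zero_of_not_dvd (Core.not_dvd_card_pPrimeCore hp.out _), hp.out.factorization_pow,
    Finsupp.single_eq_same] at hd
  have h8 := ih _ (by omega) _ (Core.pPrimeCore_quotient_pPrimeCore p (X ⧸ pCore p X)) rfl
  have h9 := kc_le_mul f hf f.ker.subtype f.ker.range_subtype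
  generalize (Nat.card ((X ⧸ pCore p X) ⧸ pPrimeCore p (X ⧸ pCore p X))).factorization p = b at *
  obtain ⟨a, rfl⟩ : ∃ c, a = c + 1 := ⟨a - 1, by omega⟩
  have h10 : kc f.ker ≤ 3 ^ a * p ^ (a + 1) := by rw [pow_succ 3] at h6; nlinarith
  refine h9.trans ((Nat.mul_le_mul h10 (h8.trans (Nat.mul_le_mul_right _
    (Nat.pow_le_pow_right (by norm_num) (Nat.sub_le b 1))))).trans_eq ?_)
  rw [← hd, show a + 1 + 0 + b - 1 = a + b by omega]
  ring

end CfsgLib.KFit
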