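import Mathlib
import Cfsg.Agent.Lib.KFit.PLen
import Cfsg.Agent.Lib.McKay.Gall
import Cfsg.Agent.Lib.Triple.Cover
import Cfsg.Agent.Lib.Cover.PSolvHt

/-!
# Gallagher's bound and the number of characters in a block of a solvable group
-/

set_option autoImplicit false

namespace CfsgLib.KFit

open Cfsg Subgroup CfsgLib.Char CfsgLib.CharDeep CfsgLib.McKay CfsgLib.Block CfsgLib.Cover
open scoped ComplexConjugate

universe u

variable {G : Type u} [Group G] [Finite G]

theorem norm_coset_sum (N : Subgroup G) [N.Normal] [Fintype N] [DecidablePred (· ∈ N)] {φ : N → ℂ}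
    (hφ : IsIrrCharacter N φ) (hi : ∀ g n, φ (cj N g n) = φ n) (x y : G) :
    ‖φ 1 * ∑ m : N, ∑ m' : N, conj (extendByZero N φ (x * m * (y * m') * (x * m)⁻¹ * (y * m')⁻¹))‖ =
      if x * y * x⁻¹ * y⁻¹ ∈ N then (Nat.card N : ℝ) ^ 2 else 0 := by
  split_ifs with h
  · obtain ⟨d, hd⟩ : ∃ d : ℕ, φ 1 = d := ⟨_, (ChDeg.deg_cast (isCharacter_of_isIrr hφ)).symm⟩
    obtain ⟨Γ, _, _, c, -⟩ := Triple.exists_cover N hφ hi hd
    obtain ⟨a, rfl⟩ := c.surj x
    obtain ⟨b, rfl⟩ := c.surj y
    obtain ⟨z, hz, n, hn⟩ := (c.mem_comap_iff (x := a * b * a⁻¹ * b⁻¹)).1 (by simpa using h)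
    have hmem : ∀ m m' : N, c.π a * m * (c.π b * m') * (c.π a * m)⁻¹ * (c.π b * m')⁻¹ ∈ N := fun m m' => by
      rw [comm_coset_eq]
      exact N.mul_mem (N.mul_mem (Subtype.property _) h) (Subtype.property _)
    let e := MonoidHom.ofInjective c.ι_injective
    have := Fintype.ofFinite c.ι.range
    have h1 : ∀ m m' : N, c.E (a * e m * (b * e m') * (a * e m)⁻¹ * (b * e m')⁻¹) =
        c.lam ⟨z, hz⟩ * φ ⟨_, hmem m m'⟩ := fun m m' => by
      obtain ⟨k, hk⟩ : ∃ k, a * e m * (b * e m') * (a * e m)⁻¹ * (b * e m')⁻¹ = z * c.ι k := by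
        rw [comm_coset_eq, hn, ← mul_assoc, mem_center_iff.1 (c.central hz), mul_assoc z, mul_assoc z]
        obtain ⟨k, hk⟩ := c.ι.range.mul_mem (c.ι.range.mul_mem (Subtype.property _) ⟨n, rfl⟩) (Subtype.property _)
        exact ⟨k, congrArg _ hk.symm⟩
      have h2 := congrArg c.π hk
      simp only [map_mul, map_inv, MonoidHom.mem_ker.1 hz, one_mul, c.π_ι, e, MonoidHom.ofInjective_apply] at h2
      rw [hk, c.E_mul ⟨z, hz⟩, c.E_ι]
      congr 2
      exact Subtype.ext h2.symm
    have h2 := sum_comm_coset c.ι.range (isCharacter_of_isIrr c.irr)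
      (c.isIrr_res hφ c.ι.range.subtype (subtype_injective _) (range_subtype _)) a b
    rw [← e.toEquiv.sum_comp, c.E_one, ← Nat.card_congr e.toEquiv, eq_div_iff (irr_one_ne_zero hφ)] at h2
    simp only [← e.toEquiv.sum_comp, MulEquiv.toEquiv_eq_coe, EquivLike.coe_coe, h1, ← Finset.mul_sum] at h2
    have h3 := congrArg norm h2
    have h4 : ‖(c.lam ⟨z, hz⟩ : ℂ)‖ = 1 :=
      Complex.norm_eq_one_of_pow_eq_one (n := Nat.card c.π.ker)
        (by rw [← Units.val_pow_eq_pow_val, ← map_pow, pow_card_eq_one', map_one, Units.val_one]) Nat.card_pos.ne'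
    simp only [extendByZero_of_mem N _ (hmem _ _), ← map_sum, norm_mul, Complex.norm_conj]
    simp only [norm_mul, h4, one_mul, norm_pow, Complex.norm_natCast] at h3
    rw [← h3, mul_comm]
  · have hmem : ∀ m m' : N, x * m * (y * m') * (x * m)⁻¹ * (y * m')⁻¹ ∉ N := fun m m' => by
      rw [comm_coset_eq, N.mul_mem_cancel_right (Subtype.property _),
        N.mul_mem_cancel_left (Subtype.property _)]
      exact h
    simp only [extendByZero_of_not_mem N _ (hmem _ _), map_zero, Finset.sum_const_zero, mul_zero, norm_zero]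

theorem sum_comm_mem [Fintype G] (N : Subgroup G) [N.Normal] [DecidablePred (· ∈ N)] :
    ∑ x : G, ∑ y : G, (if x * y * x⁻¹ * y⁻¹ ∈ N then 1 else 0 : ℂ) =
      Nat.card N * Nat.card G * kc (G ⧸ N) := by
  classical
  have := Fintype.ofFinite (G ⧸ N)
  have h1 : ∀ x y : G, (if x * y * x⁻¹ * y⁻¹ ∈ N then 1 else 0 : ℂ) =
      if Commute (QuotientGroup.mk' N x) (QuotientGroup.mk' N y) then 1 else 0 := fun x y => by
    congr 1
    rw [← commutatorElement_eq_one_iff_commute, ← map_commutatorElement, ← MonoidHom.mem_ker,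
      QuotientGroup.ker_mk', commutatorElement_def]
  have h2 := fun f => sum_comp_of_surjective (QuotientGroup.mk' N) (QuotientGroup.mk'_surjective N) f
  simp only [h1]
  rw [h2 fun a => ∑ y : G, if Commute a (QuotientGroup.mk' N y) then 1 else 0]
  simp only [fun a => h2 fun b => if Commute a b then 1 else 0]
  rw [← Finset.mul_sum, ← Fintype.sum_prod_type', Finset.sum_boole, ← Fintype.card_subtype,
    ← Nat.card_eq_fintype_card, card_comm_eq_card_conjClasses_mul_card, QuotientGroup.ker_mk',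
    card_eq_card_quotient_mul_card_subgroup N]
  push_cast
  ring

/-- **Gallagher**: at most `k(G/N)` irreducible characters lie over an invariant character of `N`. -/
theorem cnt_le_kc (N : Subgroup G) [N.Normal] {φ : N → ℂ} (hφ : IsIrrCharacter N φ)
    (hi : ∀ g n, φ (cj N g n) = φ n) : cnt 0 1 N.subtype φ ≤ kc (G ⧸ N) := by
  classical
  have := Fintype.ofFinite G
  have := Fintype.ofFinite N
  have h0 := irr_one_ne_zero hφ
  have h1 := sum_shift N (fun x y => conj (extendByZero N φ (x * y * x⁻¹ * y⁻¹)))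
  rw [comm_sum N hφ hi] at h1
  have h2 : ((Nat.card N : ℂ) ^ 2 * (Nat.card N * Nat.card G * cnt 0 1 N.subtype φ : ℕ)) =
      ∑ x : G, ∑ y : G, φ 1 * ∑ m : N, ∑ m' : N,
        conj (extendByZero N φ (x * m * (y * m') * (x * m)⁻¹ * (y * m')⁻¹)) := by
    simp only [← Finset.mul_sum]
    rw [h1]
    push_cast
    field_simp
  have h3 := congrArg norm h2
  have h4 := congrArg Complex.re (sum_comm_mem N)
  simp only [Complex.re_sum, apply_ite Complex.re, Complex.one_re, Complex.zero_re, ← Nat.cast_mul,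
    Complex.natCast_re] at h4
  rw [norm_mul, norm_pow, Complex.norm_natCast, Complex.norm_natCast] at h3
  have h5 : (Nat.card N : ℝ) ^ 2 * (Nat.card N * Nat.card G * cnt 0 1 N.subtype φ : ℕ) ≤
      (Nat.card N : ℝ) ^ 2 * (Nat.card N * Nat.card G * kc (G ⧸ N) : ℕ) := by
    rw [h3, ← h4, Finset.mul_sum]
    refine norm_sum_le_of_le _ fun x _ => ?_
    rw [Finset.mul_sum]
    refine norm_sum_le_of_le _ fun y _ => ?_
    rw [norm_coset_sum N hφ hi]
    split_ifs <;> simp
  have h6 : (0 : ℝ) < (Nat.card N : ℝ) ^ 2 := pow_pos (Nat.cast_pos.2 Nat.card_pos) 2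
  exact Nat.le_of_mul_le_mul_left (Nat.cast_le.1 (le_of_mul_le_mul_left h5 h6))
    (Nat.mul_pos Nat.card_pos Nat.card_pos)

theorem ncard_overSet_le (N : Subgroup G) [N.Normal] [Fintype N] {θ : IrrCharacter N}
    (hi : ∀ g n, (θ : N → ℂ) (cj N g n) = (θ : N → ℂ) n) : (overSet N {θ}).ncard ≤ kc (G ⧸ N) := by
  refine le_trans (le_of_eq ?_) (cnt_le_kc N θ.2 hi)
  refine Nat.card_congr (Equiv.subtypeEquivRight fun χ => ?_)
  rw [mem_overSet_singleton, over_iff]
  exact ⟨fun h => ⟨good_zero χ.2, h⟩, fun h => h.2⟩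

theorem ncard_block_le {p : ℕ} [Fact p.Prime] {M : Ideal AlgInt} (hM : IsPModular p M) [Group.IsSolvable G]
    {B : Set (IrrCharacter G)} (hB : IsPBlock M B) :
    B.ncard ≤ 3 ^ (blockDefect p B - 1) * p ^ blockDefect p B := by
  induction hn : Nat.card G using Nat.strong_induction_on generalizing G with
  | _ n ih =>
  have := Fintype.ofFinite G
  set N := pPrimeCore p G with hN
  have := Fintype.ofFinite N
  obtain ⟨χ, hχ⟩ := IsPBlock_nonempty hM hB
  obtain ⟨θ, hθ⟩ := exists_under N χ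
  have hNp : (Nat.card N).Coprime p := PLocal.PSolv.coprime_card_pPrimeCore
  by_cases hT : inertia N (θ : N → ℂ) = ⊤
  · obtain ⟨h1, h2⟩ := eq_overSet_of_isPSolvable hM PLocal.PSolv.of_isSolvable
      (conjIrr_eq_of_inertia_eq_top N hT) hB hχ hθ
    obtain ⟨D, hD⟩ := exists_isDefectGroup hM hB
    have h3 := factorization_card_eq_of_sylIn ((h2 D).1 hD)
    rw [card_eq_pow_blockDefect hM hB hD, Nat.Prime.factorization_pow Fact.out, Finsupp.single_eq_same,
      card_eq_card_quotient_mul_card_subgroup N, Nat.factorization_mul Nat.card_pos.ne' Nat.card_pos.ne',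
      Finsupp.add_apply, Nat.factorization_eq_zero_of_not_dvd
        ((Nat.Prime.coprime_iff_not_dvd Fact.out).1 hNp.symm), add_zero] at h3
    refine le_trans ?_ (kc_le_of_pPrimeCore _ (G ⧸ N) (Core.pPrimeCore_quotient_pPrimeCore p G) h3.symm)
    exact h1 ▸ ncard_overSet_le N ((ChDeg.inv_cj_iff N _).2 hT)
  · set T := inertia N (θ : N → ℂ) with hTdef
    have := Fintype.ofFinite T
    have hb := isPBlock_singleton_of_coprime hM hNp θ
    have hT' := mem_inertia_iff_forall N θ
    have hNT : N ≤ T := le_inertia N (irr_isClassFunction θ)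
    obtain ⟨B', hcov, hind⟩ := fongReynolds_surj N hM hb hT' hNT hB ⟨χ, hχ, θ, rfl, hθ⟩
    have hB' := ((BrPair.isInducedBlock_iff hM).1 hind).1
    obtain ⟨D, hD⟩ := exists_isDefectGroup hM hB'
    have h1 := card_eq_pow_blockDefect hM hB ((fongReynolds_defect_height N hM hb hT' hNT hcov hind).1 D hD)
    rw [card_map_of_injective T.subtype_injective, card_eq_pow_blockDefect hM hB' hD] at h1
    rw [← Nat.pow_right_injective (Nat.Prime.two_le Fact.out) h1]
    refine le_trans ?_ (ih _ (hn ▸ card_lt_of_ne_top hT) hB' rfl)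
    rw [← Set.ncard_image_of_injective B Subtype.val_injective]
    refine le_trans (Set.ncard_le_ncard (t := (fun ψ : IrrCharacter T => indFun T (ψ : T → ℂ)) '' B') ?_
      (Set.toFinite _)) (Set.ncard_image_le (Set.toFinite _))
    rintro _ ⟨ξ, hξ, rfl⟩
    obtain ⟨ψ, hψ, h⟩ := (fongReynolds_mem_iff N hM hb hT' hNT hcov hind ξ).1 hξ
    exact ⟨ψ, hψ, h.symm⟩

end CfsgLib.KFit
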